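import Cfsg.Agent.Lib.OddCorr.Data
import Cfsg.Agent.Lib.CharClifford.NormOne

/-!
# From matrix data to the correspondence: norms
-/

set_option autoImplicit false
set_option linter.unusedSectionVars false

open scoped Kronecker ComplexConjugate

namespace Cfsg.Agent.Lib.OddCorr

open Cfsg Cfsg.Agent.Lib.Char Cfsg.Agent.Lib.CharClifford Matrix

universe u

variable {G : Type u} [Group G] [Fintype G]

/-- Odd multiplicity of `g` in `f`. -/
def OddMult {X : Type u} [Group X] [Fintype X] (f g : X → ℂ) : Prop :=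
  ∃ m : ℕ, classInner f g = (m : ℂ) ∧ Odd m

theorem oddMult_iff_of_eq {X : Type u} [Group X] [Fintype X] {f : X → ℂ} {η : X → ℂ}
    (hη : IsIrrCharacter X η) {c : X → ℂ} (hc : IsCharacter X c) (hf : f = η + (2 : ℂ) • c)
    (ψ : IrrCharacter X) : OddMult f (ψ : X → ℂ) ↔ (ψ : X → ℂ) = η := by
  obtain ⟨m, hm⟩ := classInner_natCast hc (isCharacter_of_isIrr ψ.2)
  have h : classInner f (ψ : X → ℂ) = classInner η (ψ : X → ℂ) + 2 * (m : ℂ) := by
    rw [hf, classInner_add_left, classInner_smul_left, hm]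
  refine ⟨fun ⟨j, hj, hjo⟩ => ?_, fun he => ⟨1 + 2 * m, ?_, by simp [parity_simps]⟩⟩
  · by_contra hne
    rw [h, classInner_irr_ne hη ψ.2 (Ne.symm hne), zero_add] at hj
    have h2 : 2 * m = j := by exact_mod_cast hj
    exact Nat.not_even_iff_odd.mpr hjo ⟨m, by omega⟩
  · rw [h, he, classInner_irr_self hη]; push_cast; ring

theorem sum_mul_subgroup (A B D : Subgroup G) [Fintype A] [Fintype B] (hDA : D ≤ A) (hDB : D ≤ B)
    (hint : ∀ g ∈ A, g ∈ B → g ∈ D) (hprod : ∀ g : G, ∃ x ∈ A, ∃ y ∈ B, g = x * y) (f : G → ℂ) :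
    ∑ x : A, ∑ y : B, f ((x : G) * y) = (Nat.card D : ℂ) * ∑ g : G, f g := by
  classical
  have := Fintype.ofFinite D
  rw [← Fintype.sum_prod_type', ← Finset.sum_fiberwise Finset.univ
    (fun p : A × B => (p.1 : G) * p.2), Finset.mul_sum]
  refine Finset.sum_congr rfl fun g _ => ?_
  rw [Finset.sum_congr rfl (g := fun _ => f g) fun p hp => by rw [(Finset.mem_filter.mp hp).2],
    Finset.sum_const, nsmul_eq_mul]
  congr 2
  obtain ⟨x₀, hx₀, y₀, hy₀, hg⟩ := hprod g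
  rw [Nat.card_eq_fintype_card, ← Finset.card_univ (α := D)]
  symm
  refine Finset.card_bij (fun d _ => (⟨x₀ * (d : G), A.mul_mem hx₀ (hDA d.2)⟩,
    ⟨(d : G)⁻¹ * y₀, B.mul_mem (B.inv_mem (hDB d.2)) hy₀⟩)) (fun d _ => ?_) (fun d _ d' _ h => ?_)
    fun p hp => ?_
  · simp only [Finset.mem_filter, Finset.mem_univ, true_and]
    rw [hg]; group
  · exact Subtype.ext (mul_left_cancel (congrArg (fun z : A × B => (z.1 : G)) h))
  · have hp' : (p.1 : G) * p.2 = x₀ * y₀ := (Finset.mem_filter.mp hp).2.trans hg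
    have h1 : x₀⁻¹ * (p.1 : G) = y₀ * (p.2 : G)⁻¹ := by
      rw [eq_mul_inv_iff_mul_eq, mul_assoc, hp', inv_mul_cancel_left]
    refine ⟨⟨x₀⁻¹ * (p.1 : G), hint _ (A.mul_mem (A.inv_mem hx₀) p.1.2)
      (h1 ▸ B.mul_mem hy₀ (B.inv_mem p.2.2))⟩, Finset.mem_univ _, Prod.ext (Subtype.ext ?_) (Subtype.ext ?_)⟩
    · simp
    · show (x₀⁻¹ * (p.1 : G))⁻¹ * y₀ = p.2
      rw [h1]; group

theorem classInner_eq_sum_inv [DecidableEq G] {χ χ' : G → ℂ} (h : ∀ g, χ' g⁻¹ = conj (χ' g)) :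
    classInner χ χ' = (Nat.card G : ℂ)⁻¹ * ∑ g : G, χ g * χ' g⁻¹ := by
  simp only [classInner, h]

variable {K L H : Subgroup G} [K.Normal] {hLK : L ≤ K} {φ : L → ℂ} {θ : K → ℂ}

/-- What is known about a character over `θ`. -/
structure Lifted (D : Good K L H hLK φ θ) (χ : G → ℂ) where
  e : ℕ
  U : G →* Matrix (Fin e × Fin D.n × Fin D.d) (Fin e × Fin D.n × Fin D.d) ℂ
  trace_U : ∀ g, (U g).trace = χ g
  U_K : ∀ k : K, U k = (1 : Matrix (Fin e) (Fin e) ℂ) ⊗ₖ D.ρ k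
  Q : H → (Matrix (Fin e) (Fin e) ℂ)ˣ
  U_H : ∀ h : H, U h = (Q h : Matrix (Fin e) (Fin e) ℂ) ⊗ₖ
    ((D.N h : Matrix (Fin D.n) (Fin D.n) ℂ) ⊗ₖ (D.R h : Matrix (Fin D.d) (Fin D.d) ℂ))

theorem exists_lifted [Fintype K] (D : Good K L H hLK φ θ) (hθ : IsIrrCharacter K θ) {χ : G → ℂ}
    (hχ : IsIrrCharacter G χ) (e : ℕ) (he : (fun k : K => χ k) = (e : ℂ) • θ) :
    ∃ lf : Lifted D χ, lf.e = e := by
  classical
  haveI : Nonempty (Fin D.n × Fin D.d) := by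
    by_contra hne
    haveI : IsEmpty (Fin D.n × Fin D.d) := not_nonempty_iff.mp hne
    refine irr_degree_ne_zero hθ ?_
    rw [← D.trace_ρ, Matrix.trace, Finset.univ_eq_empty, Finset.sum_empty]
  let σ' : K →* Matrix (Fin e × Fin D.n × Fin D.d) (Fin e × Fin D.n × Fin D.d) ℂ :=
    { toFun := fun k => (1 : Matrix (Fin e) (Fin e) ℂ) ⊗ₖ D.ρ k
      map_one' := by rw [map_one, Matrix.one_kronecker_one]
      map_mul' := fun l l' => by rw [map_mul, ← Matrix.mul_kronecker_mul, one_mul] }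
  obtain ⟨U, hU, hUK⟩ := exists_rep_extending (isCharacter_of_isIrr hχ) K.subtype σ' fun k => by
    show ((1 : Matrix (Fin e) (Fin e) ℂ) ⊗ₖ D.ρ k).trace = χ k
    rw [Matrix.trace_kronecker, Matrix.trace_one, Fintype.card_fin, D.trace_ρ]
    exact (congrFun he k).symm
  have hUK' : ∀ k : K, U k = (1 : Matrix (Fin e) (Fin e) ℂ) ⊗ₖ D.ρ k := hUK
  have hirr : IsIrrCharacter K fun k => (D.ρ k).trace := by rw [funext D.trace_ρ]; exact hθ
  have hQ : ∀ h : H, ∃ Q : (Matrix (Fin e) (Fin e) ℂ)ˣ, U h = (Q : Matrix (Fin e) (Fin e) ℂ) ⊗ₖ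
      ((D.N h : Matrix (Fin D.n) (Fin D.n) ℂ) ⊗ₖ (D.R h : Matrix (Fin D.d) (Fin D.d) ℂ)) := by
    intro h
    exact exists_factor_with D.ρ hirr (fun k => MulAut.conjNormal (h : G) k) (kronUnit (D.N h) (D.R h))
      (D.intertwine h) (U.toHomUnits h) fun k => by
        show U h * _ = _ * U h
        rw [← hUK', ← hUK', ← map_mul, ← map_mul, MulAut.conjNormal_apply]
        congr 1; group
  choose Q hQ using hQ
  exact ⟨⟨e, U, hU, hUK', Q, hQ⟩, rfl⟩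

variable {D : Good K L H hLK φ θ} {χ χ' : G → ℂ}

/-- The operator cutting out the signed part. -/
noncomputable def Lifted.Jb (lf : Lifted D χ) :
    Matrix (Fin lf.e × Fin D.n × Fin D.d) (Fin lf.e × Fin D.n × Fin D.d) ℂ :=
  (1 : Matrix (Fin lf.e) (Fin lf.e) ℂ) ⊗ₖ (D.J ⊗ₖ (1 : Matrix (Fin D.d) (Fin D.d) ℂ))

/-- The signed restriction. -/
noncomputable def Lifted.δ (lf : Lifted D χ) : H → ℂ := fun h => (lf.U h * lf.Jb).trace

theorem Lifted.Jb_sq (lf : Lifted D χ) : lf.Jb * lf.Jb = 1 := by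
  rw [Lifted.Jb, ← Matrix.mul_kronecker_mul, ← Matrix.mul_kronecker_mul, one_mul, one_mul, D.sq,
    Matrix.one_kronecker_one, Matrix.one_kronecker_one]

theorem Lifted.Jb_comm (lf : Lifted D χ) (h : H) : lf.U h * lf.Jb = lf.Jb * lf.U h := by
  rw [lf.U_H, Lifted.Jb, ← Matrix.mul_kronecker_mul, ← Matrix.mul_kronecker_mul,
    ← Matrix.mul_kronecker_mul, ← Matrix.mul_kronecker_mul, one_mul, mul_one, one_mul, mul_one, D.comm]

theorem Lifted.exists_split (lf : Lifted D χ) : ∃ c₁ c₂ : H → ℂ, IsCharacter H c₁ ∧ IsCharacter H c₂ ∧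
    lf.δ = c₁ - c₂ ∧ (fun h : H => χ h) = lf.δ + (2 : ℂ) • c₂ := by
  have hidem : ∀ s : ℂ, s * s = 1 → IsCharacter H fun h =>
      (lf.U.comp H.subtype h * ((1 / 2 : ℂ) • (1 + s • lf.Jb))).trace := by
    intro s hs
    refine isCharacter_trace_idem _ _ ?_ fun h => ?_
    · simp only [smul_mul_assoc, mul_smul_comm, mul_add, add_mul, one_mul, mul_one, lf.Jb_sq,
        smul_smul, hs, one_smul, smul_add]
      match_scalars <;> first | ring1 | linear_combination (1 / 4 : ℂ) * hs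
    · show lf.U h * _ = _ * lf.U h
      rw [mul_smul_comm, smul_mul_assoc, mul_add, add_mul, one_mul, mul_one, mul_smul_comm,
        smul_mul_assoc, lf.Jb_comm]
  refine ⟨_, _, hidem 1 (one_mul 1), hidem (-1) (by norm_num), funext fun h => ?_, funext fun h => ?_⟩
  · show (lf.U h * lf.Jb).trace = (lf.U h * _).trace - (lf.U h * _).trace
    rw [← Matrix.trace_sub, ← mul_sub]
    congr 2
    module
  · show χ h = (lf.U h * lf.Jb).trace + (2 : ℂ) • (lf.U h * _).trace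
    rw [← lf.trace_U, ← Matrix.trace_smul, ← Matrix.trace_add, ← mul_smul_comm,
      ← mul_add]
    congr 1
    conv_lhs => rw [← mul_one (lf.U h)]
    congr 1
    module

theorem Lifted.δ_inv (lf : Lifted D χ) (h : H) : lf.δ h⁻¹ = conj (lf.δ h) := by
  obtain ⟨c₁, c₂, h1, h2, he, -⟩ := lf.exists_split
  rw [he, Pi.sub_apply, Pi.sub_apply, char_inv h1, char_inv h2, map_sub]

/-- The scalar attached to two characters over `θ` and an element of the complement. -/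
noncomputable def pairTerm (lf : Lifted D χ) (lf' : Lifted D χ') (h : H) : ℂ :=
  (lf.Q h : Matrix (Fin lf.e) (Fin lf.e) ℂ).trace *
    (((lf'.Q h)⁻¹ : (Matrix (Fin lf'.e) (Fin lf'.e) ℂ)ˣ) : Matrix (Fin lf'.e) (Fin lf'.e) ℂ).trace

theorem Lifted.U_inv (lf : Lifted D χ) (h : H) :
    lf.U (h : G)⁻¹ = (((lf.Q h)⁻¹ : (Matrix (Fin lf.e) (Fin lf.e) ℂ)ˣ) : Matrix (Fin lf.e) (Fin lf.e) ℂ) ⊗ₖ
      ((((D.N h)⁻¹ : (Matrix (Fin D.n) (Fin D.n) ℂ)ˣ) : Matrix (Fin D.n) (Fin D.n) ℂ) ⊗ₖ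
        (((D.R h)⁻¹ : (Matrix (Fin D.d) (Fin D.d) ℂ)ˣ) : Matrix (Fin D.d) (Fin D.d) ℂ)) := by
  have h1 : lf.U.toHomUnits (h : G) = kronUnit (lf.Q h) (kronUnit (D.N h) (D.R h)) :=
    Units.ext (lf.U_H h)
  show ((lf.U.toHomUnits (h : G)⁻¹ : (Matrix (Fin lf.e × Fin D.n × Fin D.d) (Fin lf.e × Fin D.n × Fin D.d) ℂ)ˣ) :
    Matrix (Fin lf.e × Fin D.n × Fin D.d) (Fin lf.e × Fin D.n × Fin D.d) ℂ) = _
  rw [map_inv, h1]
  rfl

variable [Fintype K] [Fintype L]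

theorem sum_pair_K (hθ : IsIrrCharacter K θ) (lf : Lifted D χ) (lf' : Lifted D χ') (h : H) :
    ∑ k : K, χ ((h : G) * k) * χ' ((h : G) * k)⁻¹ = pairTerm lf lf' h * (Nat.card K : ℂ) := by
  haveI : Nonempty (Fin D.n × Fin D.d) := by
    by_contra hne
    haveI : IsEmpty (Fin D.n × Fin D.d) := not_nonempty_iff.mp hne
    refine irr_degree_ne_zero hθ ?_
    rw [← D.trace_ρ, Matrix.trace, Finset.univ_eq_empty, Finset.sum_empty]
  rw [Nat.card_eq_fintype_card, ← schur_sum_units D.ρ (by rw [funext D.trace_ρ]; exact hθ)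
    (kronUnit (D.N h) (D.R h)), Finset.mul_sum]
  refine Finset.sum_congr rfl fun k _ => ?_
  rw [← lf.trace_U, ← lf'.trace_U, map_mul, _root_.mul_inv_rev, map_mul, ← Subgroup.coe_inv,
    lf.U_H, lf.U_K, lf'.U_K, lf'.U_inv, ← Matrix.mul_kronecker_mul, ← Matrix.mul_kronecker_mul,
    mul_one, one_mul, Matrix.trace_kronecker, Matrix.trace_kronecker, pairTerm]
  show _ = _ * (((D.N h : Matrix (Fin D.n) (Fin D.n) ℂ) ⊗ₖ _ * D.ρ k).trace * (D.ρ k⁻¹ * (_ ⊗ₖ _)).trace)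
  ring

theorem sum_pair_L (hφ : IsIrrCharacter L φ) (hLH : L ≤ H) (lf : Lifted D χ) (lf' : Lifted D χ')
    (h : H) :
    ∑ l : L, lf.δ (h * Subgroup.inclusion hLH l) * lf'.δ (h * Subgroup.inclusion hLH l)⁻¹ =
      pairTerm lf lf' h * (Nat.card L : ℂ) := by
  haveI : Nonempty (Fin D.d) := by
    by_contra hne
    haveI : IsEmpty (Fin D.d) := not_nonempty_iff.mp hne
    refine irr_degree_ne_zero hφ ?_
    rw [← D.trace_σ, Matrix.trace, Finset.univ_eq_empty, Finset.sum_empty]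
  rw [Nat.card_eq_fintype_card, ← schur_sum_units D.σ (by rw [funext D.trace_σ]; exact hφ) (D.R h),
    Finset.mul_sum]
  refine Finset.sum_congr rfl fun l _ => ?_
  have hUl : ∀ {χ₀ : G → ℂ} (m : Lifted D χ₀) (l : L),
      m.U (l : G) = (1 : Matrix (Fin m.e) (Fin m.e) ℂ) ⊗ₖ ((1 : Matrix (Fin D.n) (Fin D.n) ℂ) ⊗ₖ D.σ l) :=
    fun m l => by rw [← D.res l]; exact m.U_K (Subgroup.inclusion hLK l)
  show (lf.U ((h : G) * (l : G)) * lf.Jb).trace * (lf'.U ((h : G) * (l : G))⁻¹ * lf'.Jb).trace = _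
  rw [map_mul, _root_.mul_inv_rev, map_mul, lf.U_H, lf'.U_inv, hUl lf l, ← Subgroup.coe_inv,
    hUl lf' l⁻¹]
  simp only [Lifted.Jb, ← Matrix.mul_kronecker_mul, one_mul, mul_one, Matrix.trace_kronecker, pairTerm]
  rw [Matrix.trace_mul_comm (((D.N h)⁻¹ : (Matrix (Fin D.n) (Fin D.n) ℂ)ˣ) : Matrix (Fin D.n) (Fin D.n) ℂ) D.J]
  linear_combination (lf.Q h : Matrix (Fin lf.e) (Fin lf.e) ℂ).trace *
    (((lf'.Q h)⁻¹ : (Matrix (Fin lf'.e) (Fin lf'.e) ℂ)ˣ) : Matrix (Fin lf'.e) (Fin lf'.e) ℂ).trace *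
    ((D.R h : Matrix (Fin D.d) (Fin D.d) ℂ) * D.σ l).trace *
    (D.σ l⁻¹ * (((D.R h)⁻¹ : (Matrix (Fin D.d) (Fin D.d) ℂ)ˣ) : Matrix (Fin D.d) (Fin D.d) ℂ)).trace *
    D.one h

theorem classInner_δ [Fintype H] (hLH : L ≤ H) (hint : ∀ g ∈ H, g ∈ K → g ∈ L)
    (hprod : ∀ g : G, ∃ x ∈ H, ∃ y ∈ K, g = x * y) (hθ : IsIrrCharacter K θ) (hφ : IsIrrCharacter L φ)
    (hχ' : IsCharacter G χ') (lf : Lifted D χ) (lf' : Lifted D χ') :
    classInner lf.δ lf'.δ = classInner χ χ' := by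
  classical
  rw [classInner_eq_sum_inv lf'.δ_inv, classInner_eq_sum_inv (fun g => char_inv hχ' g)]
  have hG := sum_mul_subgroup H K L hLH hLK hint hprod fun g => χ g * χ' g⁻¹
  have hH : ∑ h : H, ∑ l : L, lf.δ (h * Subgroup.inclusion hLH l) *
      lf'.δ (h * Subgroup.inclusion hLH l)⁻¹ = (Nat.card L : ℂ) * ∑ h : H, lf.δ h * lf'.δ h⁻¹ := by
    rw [Finset.sum_comm, Nat.card_eq_fintype_card, ← Finset.card_univ, ← nsmul_eq_mul, ← Finset.sum_const]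
    exact Finset.sum_congr rfl fun l _ =>
      Fintype.sum_equiv (Equiv.mulRight (Subgroup.inclusion hLH l)) _ _ fun h => rfl
  simp only [sum_pair_K hθ lf lf', ← Finset.sum_mul] at hG
  simp only [sum_pair_L hφ hLH lf lf', ← Finset.sum_mul] at hH
  have hc := sum_mul_subgroup H K L hLH hLK hint hprod fun _ => (1 : ℂ)
  simp only [Finset.sum_const, Finset.card_univ, nsmul_eq_mul, mul_one, ← Nat.card_eq_fintype_card] at hc
  have hL : (Nat.card L : ℂ) ≠ 0 := Nat.cast_ne_zero.mpr Nat.card_pos.ne'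
  have hH0 : (Nat.card H : ℂ) ≠ 0 := Nat.cast_ne_zero.mpr Nat.card_pos.ne'
  have hG0 : (Nat.card G : ℂ) ≠ 0 := Nat.cast_ne_zero.mpr Nat.card_pos.ne'
  rw [mul_comm _ (Nat.card L : ℂ)] at hH
  have h1 := mul_left_cancel₀ hL hH
  rw [inv_mul_eq_div, inv_mul_eq_div, ← h1, div_eq_div_iff hH0 hG0]
  refine mul_left_cancel₀ hL ?_
  linear_combination (∑ h : H, pairTerm lf lf' h) * (-1 : ℂ) * hc + (Nat.card H : ℂ) * hG

theorem δ_res (hLH : L ≤ H) (lf : Lifted D χ) :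
    resLe hLH lf.δ = (lf.e : ℂ) • φ := by
  funext l
  show (lf.U (l : G) * lf.Jb).trace = _
  rw [show lf.U (l : G) = (1 : Matrix (Fin lf.e) (Fin lf.e) ℂ) ⊗ₖ ((1 : Matrix (Fin D.n) (Fin D.n) ℂ) ⊗ₖ D.σ l)
    by rw [← D.res l]; exact lf.U_K (Subgroup.inclusion hLK l)]
  rw [Lifted.Jb, ← Matrix.mul_kronecker_mul, ← Matrix.mul_kronecker_mul, one_mul, one_mul, mul_one,
    Matrix.trace_kronecker, Matrix.trace_kronecker, Matrix.trace_one, Fintype.card_fin, D.tr, one_mul,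
    D.trace_σ, Pi.smul_apply, smul_eq_mul]

/-- The signed restriction is irreducible. -/
theorem Lifted.isIrr_δ [Fintype H] (hLH : L ≤ H) (hint : ∀ g ∈ H, g ∈ K → g ∈ L)
    (hprod : ∀ g : G, ∃ x ∈ H, ∃ y ∈ K, g = x * y) (hθ : IsIrrCharacter K θ) (hφ : IsIrrCharacter L φ)
    (hχ : IsIrrCharacter G χ) (lf : Lifted D χ) : IsIrrCharacter H lf.δ := by
  have h1 : classInner lf.δ lf.δ = 1 := by
    rw [classInner_δ hLH hint hprod hθ hφ (isCharacter_of_isIrr hχ), classInner_irr_self hχ]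
  obtain ⟨c₁, c₂, hc₁, hc₂, he, -⟩ := lf.exists_split
  rcases irr_or_neg_of_norm_one ⟨c₁, c₂, hc₁, hc₂, he⟩ h1 with h | h
  · exact h
  · exfalso
    obtain ⟨m, hm⟩ := exists_natDegree (isCharacter_of_isIrr h)
    obtain ⟨d, hd⟩ := exists_natDegree (isCharacter_of_isIrr hφ)
    have h2 := congrFun (δ_res hLH lf) 1
    change lf.δ 1 = (lf.e : ℂ) * φ 1 at h2
    rw [Pi.neg_apply, h2, hd, ← Nat.cast_mul, neg_eq_iff_add_eq_zero, ← Nat.cast_add,
      Nat.cast_eq_zero] at hm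
    have hm0 : m = 0 := by omega
    refine irr_degree_ne_zero h ?_
    rw [Pi.neg_apply, h2, hd, ← Nat.cast_mul, show lf.e * d = 0 by omega, Nat.cast_zero, neg_zero]

end Cfsg.Agent.Lib.OddCorr
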