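import Cfsg.Agent.Lib.CharClifford.MatrixRep
import Mathlib.LinearAlgebra.PID
import Mathlib

/-!
# Matrix lemmas: trace orthogonality, Kronecker factors, characters cut out by idempotents
-/

set_option autoImplicit false
set_option linter.unusedSectionVars false

open scoped Kronecker

namespace Cfsg.Agent.Lib.OddCorr

open Cfsg Cfsg.Agent.Lib.Char Cfsg.Agent.Lib.CharClifford Matrix

universe u

variable {G : Type u} [Group G] {n : Type} [Fintype n] [DecidableEq n]

/-- Schur orthogonality in trace form. -/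
theorem schur_sum [Fintype G] (σ : G →* Matrix n n ℂ)
    (h : IsIrrCharacter G fun g => (σ g).trace) (A B : Matrix n n ℂ) :
    (Fintype.card n : ℂ) * ∑ g, (A * σ g).trace * (σ g⁻¹ * B).trace =
      (Fintype.card G : ℂ) * (A * B).trace := by
  have key : ∀ j i k l : n, (Fintype.card n : ℂ) * ∑ g, σ g j i * σ g⁻¹ k l =
      if j = l then (if i = k then (Fintype.card G : ℂ) else 0) else 0 := by
    intro j i k l
    obtain ⟨c, hc⟩ := scalar_of_irr σ h (∑ g, σ g * Matrix.single i k 1 * σ g⁻¹) fun x => by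
      rw [Finset.sum_mul, Finset.mul_sum]
      refine (Fintype.sum_equiv (Equiv.mulLeft x) _ _ fun g => ?_).symm
      rw [Equiv.coe_mulLeft, _root_.mul_inv_rev, map_mul, map_mul]
      simp only [mul_assoc]
      rw [inv_mul_rep, mul_one]
    have htr : c * (Fintype.card n : ℂ) = (Fintype.card G : ℂ) * (Matrix.single i k (1 : ℂ)).trace := by
      have h1 := congrArg Matrix.trace hc
      rw [Matrix.trace_sum, Matrix.trace_smul, Matrix.trace_one, smul_eq_mul,
        Finset.sum_congr rfl fun g _ => by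
          rw [Matrix.trace_mul_cycle, inv_mul_rep, one_mul], Finset.sum_const, Finset.card_univ,
        nsmul_eq_mul] at h1
      exact h1.symm
    have h1 := congrFun (congrFun hc j) l
    have h2 : ∀ g, (σ g * Matrix.single i k (1 : ℂ) * σ g⁻¹ : Matrix n n ℂ) j l = σ g j i * σ g⁻¹ k l := by
      intro g
      rw [Matrix.mul_apply, Finset.sum_eq_single k]
      · rw [Matrix.mul_single_apply_same, mul_one]
      · intro b _ hb; rw [Matrix.mul_single_apply_of_ne _ _ _ _ _ hb, zero_mul]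
      · exact fun h => absurd (Finset.mem_univ _) h
    simp only [Matrix.sum_apply, Matrix.smul_apply, Matrix.one_apply, smul_eq_mul, h2] at h1
    rw [h1]
    split_ifs with hjl hik
    · subst hik
      rw [Matrix.trace_single_eq_same, mul_one] at htr
      rw [mul_one, mul_comm, htr]
    · rw [Matrix.trace_single_eq_of_ne _ _ _ hik, mul_zero] at htr
      rw [mul_one, mul_comm, htr]
    · rw [mul_zero, mul_zero]
  calc (Fintype.card n : ℂ) * ∑ g, (A * σ g).trace * (σ g⁻¹ * B).trace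
      = ∑ i, ∑ j, ∑ k, ∑ l, A i j * B l k *
          ((Fintype.card n : ℂ) * ∑ g, σ g j i * σ g⁻¹ k l) := by
        have e1 : ∀ g, (A * σ g).trace * (σ g⁻¹ * B).trace =
            ∑ i, ∑ j, ∑ k, ∑ l, A i j * B l k * (σ g j i * σ g⁻¹ k l) := fun g => by
          simp only [Matrix.trace, Matrix.diag, Matrix.mul_apply, Finset.sum_mul]
          refine Finset.sum_congr rfl fun i _ => Finset.sum_congr rfl fun j _ => ?_
          simp only [Finset.mul_sum]
          exact Finset.sum_congr rfl fun k _ => Finset.sum_congr rfl fun l _ => by ring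
        simp only [e1, Finset.mul_sum]
        rw [Finset.sum_comm]
        refine Finset.sum_congr rfl fun i _ => ?_
        rw [Finset.sum_comm]
        refine Finset.sum_congr rfl fun j _ => ?_
        rw [Finset.sum_comm]
        refine Finset.sum_congr rfl fun k _ => ?_
        rw [Finset.sum_comm]
        refine Finset.sum_congr rfl fun l _ => Finset.sum_congr rfl fun g _ => ?_
        ring
    _ = ∑ i, ∑ j, ∑ k, ∑ l, A i j * B l k *
          (if j = l then (if i = k then (Fintype.card G : ℂ) else 0) else 0) := by simp only [key]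
    _ = (Fintype.card G : ℂ) * (A * B).trace := by
        simp only [Matrix.trace, Matrix.diag, Matrix.mul_apply, Finset.mul_sum, mul_ite, mul_zero,
          Finset.sum_ite_eq, Finset.mem_univ, if_true]
        exact Finset.sum_congr rfl fun i _ => Finset.sum_congr rfl fun j _ => by ring

theorem schur_sum_units [Fintype G] [Nonempty n] (σ : G →* Matrix n n ℂ)
    (h : IsIrrCharacter G fun g => (σ g).trace) (P : (Matrix n n ℂ)ˣ) :
    ∑ g, ((P : Matrix n n ℂ) * σ g).trace * (σ g⁻¹ * ((P⁻¹ : (Matrix n n ℂ)ˣ) : Matrix n n ℂ)).trace =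
      (Fintype.card G : ℂ) := by
  have h1 := schur_sum σ h (P : Matrix n n ℂ) ((P⁻¹ : (Matrix n n ℂ)ˣ) : Matrix n n ℂ)
  rw [Units.mul_inv, Matrix.trace_one, mul_comm (Fintype.card G : ℂ)] at h1
  exact mul_left_cancel₀ (Nat.cast_ne_zero.mpr Fintype.card_ne_zero) h1

variable {a : Type} [Fintype a] [DecidableEq a]

/-- The left factor of a nonzero Kronecker product is determined up to a scalar. -/
theorem left_eq_smul_of_kron_eq {A A' : Matrix a a ℂ} {B B' : Matrix n n ℂ}
    (h : A ⊗ₖ B = A' ⊗ₖ B') (hne : B ≠ 0) : ∃ c : ℂ, A = c • A' := by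
  obtain ⟨i, j, hij⟩ : ∃ i j, B i j ≠ 0 := by
    by_contra hc
    push Not at hc
    exact hne (Matrix.ext hc)
  refine ⟨B' i j / B i j, Matrix.ext fun p q => ?_⟩
  have h1 := congrFun (congrFun h (p, i)) (q, j)
  simp only [Matrix.kroneckerMap_apply] at h1
  rw [Matrix.smul_apply, smul_eq_mul, div_mul_eq_mul_div, eq_div_iff hij, h1, mul_comm]

theorem kron_one_inj [Nonempty n] {A A' : Matrix a a ℂ}
    (h : A ⊗ₖ (1 : Matrix n n ℂ) = A' ⊗ₖ (1 : Matrix n n ℂ)) : A = A' := by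
  obtain ⟨i⟩ := ‹Nonempty n›
  ext p q
  have := congrFun (congrFun h (p, i)) (q, i)
  simpa [Matrix.kroneckerMap_apply] using this

/-- The Kronecker product of two units. -/
def kronUnit (A : (Matrix a a ℂ)ˣ) (B : (Matrix n n ℂ)ˣ) : (Matrix (a × n) (a × n) ℂ)ˣ :=
  ⟨(A : Matrix a a ℂ) ⊗ₖ (B : Matrix n n ℂ),
    ((A⁻¹ : (Matrix a a ℂ)ˣ) : Matrix a a ℂ) ⊗ₖ ((B⁻¹ : (Matrix n n ℂ)ˣ) : Matrix n n ℂ),
    by rw [← Matrix.mul_kronecker_mul, Units.mul_inv, Units.mul_inv, Matrix.one_kronecker_one],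
    by rw [← Matrix.mul_kronecker_mul, Units.inv_mul, Units.inv_mul, Matrix.one_kronecker_one]⟩

/-- A unit intertwining block scalar representations is a Kronecker product with a given right factor. -/
theorem exists_factor_with [Finite G] [Nonempty n] (σ : G →* Matrix n n ℂ)
    (h : IsIrrCharacter G fun g => (σ g).trace) (f : G → G) (R : (Matrix n n ℂ)ˣ)
    (hR1 : ∀ g, (R : Matrix n n ℂ) * σ g = σ (f g) * R) (X : (Matrix (a × n) (a × n) ℂ)ˣ)
    (hX : ∀ g, (X : Matrix (a × n) (a × n) ℂ) * ((1 : Matrix a a ℂ) ⊗ₖ σ g) =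
      ((1 : Matrix a a ℂ) ⊗ₖ σ (f g)) * (X : Matrix (a × n) (a × n) ℂ)) :
    ∃ N : (Matrix a a ℂ)ˣ,
      (X : Matrix (a × n) (a × n) ℂ) = (N : Matrix a a ℂ) ⊗ₖ (R : Matrix n n ℂ) := by
  let Y : (Matrix (a × n) (a × n) ℂ)ˣ := (kronUnit (1 : (Matrix a a ℂ)ˣ) R)⁻¹ * X
  have hY : ∀ g, (Y : Matrix (a × n) (a × n) ℂ) * ((1 : Matrix a a ℂ) ⊗ₖ σ g) =
      ((1 : Matrix a a ℂ) ⊗ₖ σ g) * (Y : Matrix (a × n) (a × n) ℂ) := by
    intro g
    show (_ ⊗ₖ _) * (X : Matrix (a × n) (a × n) ℂ) * _ = _ * ((_ ⊗ₖ _) * (X : Matrix (a × n) (a × n) ℂ))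
    rw [mul_assoc, hX g, ← mul_assoc, ← mul_assoc, ← Matrix.mul_kronecker_mul, ← Matrix.mul_kronecker_mul]
    congr 2
    have h2 := congrArg (fun Z => ((R⁻¹ : (Matrix n n ℂ)ˣ) : Matrix n n ℂ) * Z *
      ((R⁻¹ : (Matrix n n ℂ)ˣ) : Matrix n n ℂ)) (hR1 g)
    simp only [mul_assoc, Units.inv_mul_cancel_left, Units.mul_inv, mul_one] at h2
    exact h2.symm
  obtain ⟨N, hN⟩ := exists_kron_one_of_commute σ h _ hY
  obtain ⟨N', hN'⟩ := exists_kron_one_of_commute σ h ((Y⁻¹ : (Matrix (a × n) (a × n) ℂ)ˣ) : Matrix (a × n) (a × n) ℂ)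
    fun g => by
      have h2 := congrArg (fun Z => ((Y⁻¹ : (Matrix (a × n) (a × n) ℂ)ˣ) : Matrix (a × n) (a × n) ℂ) * Z *
        ((Y⁻¹ : (Matrix (a × n) (a × n) ℂ)ˣ) : Matrix (a × n) (a × n) ℂ)) (hY g)
      simp only [mul_assoc, Units.inv_mul_cancel_left, Units.mul_inv, mul_one] at h2
      exact h2.symm
  have h1 : N * N' = 1 := kron_one_inj (n := n) (by
    conv_lhs => rw [← mul_one (1 : Matrix n n ℂ), Matrix.mul_kronecker_mul, ← hN, ← hN', Units.mul_inv]
    rw [Matrix.one_kronecker_one])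
  refine ⟨⟨N, N', h1, mul_eq_one_comm.mp h1⟩, ?_⟩
  have h3 : (X : Matrix (a × n) (a × n) ℂ) =
      ((1 : Matrix a a ℂ) ⊗ₖ (R : Matrix n n ℂ)) * (Y : Matrix (a × n) (a × n) ℂ) := by
    show _ = _ * ((_ ⊗ₖ _) * (X : Matrix (a × n) (a × n) ℂ))
    rw [← mul_assoc, ← Matrix.mul_kronecker_mul, Units.mul_inv, inv_one, Units.val_one, mul_one,
      Matrix.one_kronecker_one, one_mul]
  rw [h3, hN, ← Matrix.mul_kronecker_mul, one_mul, mul_one]

/-- A unit intertwining block scalar representations is a Kronecker product. -/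
theorem exists_factor [Finite G] [Nonempty n] (σ : G →* Matrix n n ℂ)
    (h : IsIrrCharacter G fun g => (σ g).trace) (f : G →* G)
    (hf : ∀ g, (σ (f g)).trace = (σ g).trace) (X : (Matrix (a × n) (a × n) ℂ)ˣ)
    (hX : ∀ g, (X : Matrix (a × n) (a × n) ℂ) * ((1 : Matrix a a ℂ) ⊗ₖ σ g) =
      ((1 : Matrix a a ℂ) ⊗ₖ σ (f g)) * (X : Matrix (a × n) (a × n) ℂ)) :
    ∃ (N : (Matrix a a ℂ)ˣ) (R : (Matrix n n ℂ)ˣ),
      (X : Matrix (a × n) (a × n) ℂ) = (N : Matrix a a ℂ) ⊗ₖ (R : Matrix n n ℂ) ∧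
        ∀ g, (R : Matrix n n ℂ) * σ g = σ (f g) * R := by
  obtain ⟨R, hR⟩ := exists_conj σ (σ.comp f) fun g => (hf g).symm
  have hR1 : ∀ g, (R : Matrix n n ℂ) * σ g = σ (f g) * R := fun g => by
    rw [show σ (f g) = (R : Matrix n n ℂ) * σ g * ((R⁻¹ : (Matrix n n ℂ)ˣ) : Matrix n n ℂ) from hR g,
      mul_assoc _ _ (R : Matrix n n ℂ), Units.inv_mul, mul_one]
  obtain ⟨N, hN⟩ := exists_factor_with σ h f R hR1 X hX
  exact ⟨N, R, hN, hR1⟩

/-- Two units with the same intertwining property are proportional. -/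
theorem eq_smul_of_intertwine [Finite G] (σ : G →* Matrix n n ℂ)
    (h : IsIrrCharacter G fun g => (σ g).trace) (f : G → G) (X Y : (Matrix n n ℂ)ˣ)
    (hX : ∀ g, (X : Matrix n n ℂ) * σ g = σ (f g) * X)
    (hY : ∀ g, (Y : Matrix n n ℂ) * σ g = σ (f g) * Y) :
    ∃ c : ℂ, (Y : Matrix n n ℂ) = c • (X : Matrix n n ℂ) := by
  obtain ⟨c, hc⟩ := scalar_of_irr σ h (((X⁻¹ : (Matrix n n ℂ)ˣ) : Matrix n n ℂ) * Y) fun g => by
    have h2 : ((X⁻¹ : (Matrix n n ℂ)ˣ) : Matrix n n ℂ) * σ (f g) =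
        σ g * ((X⁻¹ : (Matrix n n ℂ)ˣ) : Matrix n n ℂ) := by
      rw [Units.eq_mul_inv_iff_mul_eq, mul_assoc, ← hX g, Units.inv_mul_cancel_left]
    rw [mul_assoc, hY g, ← mul_assoc, h2, mul_assoc]
  refine ⟨c, ?_⟩
  have := congrArg ((X : Matrix n n ℂ) * ·) hc
  simpa only [Units.mul_inv_cancel_left, mul_smul_comm, mul_one] using this

/-- The trace against a commuting idempotent is a character. -/
theorem isCharacter_trace_idem [Finite G] (U : G →* Matrix n n ℂ) (e : Matrix n n ℂ) (he : e * e = e)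
    (hc : ∀ g, U g * e = e * U g) : IsCharacter G fun g => (U g * e).trace := by
  classical
  let T : Matrix n n ℂ ≃ₐ[ℂ] Module.End ℂ (n → ℂ) := Matrix.toLinAlgEquiv'
  let p : Submodule ℂ (n → ℂ) := LinearMap.range (T e)
  have hp : ∀ g, ∀ v ∈ p, toRep U g v ∈ p := by
    rintro g _ ⟨w, rfl⟩
    refine ⟨toRep U g w, ?_⟩
    show (T e * T (U g)) w = (T (U g) * T e) w
    rw [← map_mul, ← map_mul, hc]
  let ρ : Representation ℂ G p :=
    { toFun := fun g => (toRep U g).restrict (hp g)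
      map_one' := LinearMap.ext fun v => Subtype.ext (by
        show toRep U 1 (v : n → ℂ) = v
        rw [map_one]; rfl)
      map_mul' := fun g g' => LinearMap.ext fun v => Subtype.ext (by
        show toRep U (g * g') (v : n → ℂ) = toRep U g (toRep U g' (v : n → ℂ))
        rw [map_mul]; rfl) }
  have h := isCharacter_character ρ
  suffices heq : ρ.character = fun g => (U g * e).trace by rwa [heq] at h
  funext g
  show LinearMap.trace ℂ p ((toRep U g).restrict (hp g)) = _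
  have hmem : ∀ v, (T (U g * e)) v ∈ p := fun v => by
    rw [hc, map_mul]; exact ⟨_, rfl⟩
  have h2 : (toRep U g).restrict (hp g) = (T (U g * e)).restrict (fun v _ => hmem v) := by
    refine LinearMap.ext fun v => Subtype.ext ?_
    obtain ⟨_, w, rfl⟩ := v
    show T (U g) (T e w) = T (U g * e) (T e w)
    rw [map_mul, Module.End.mul_apply,
      show T e (T e w) = T e w from by rw [← Module.End.mul_apply, ← map_mul, he]]
  rw [h2, LinearMap.trace_restrict_eq_of_forall_mem p _ hmem,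
    LinearMap.trace_eq_matrix_trace ℂ (Pi.basisFun ℂ n)]
  congr 1
  ext i j
  rw [LinearMap.toMatrix_apply, Pi.basisFun_apply, Pi.basisFun_repr]
  show ((U g * e) *ᵥ Pi.single j 1) i = _
  rw [Matrix.mulVec_single_one]
  rfl

end Cfsg.Agent.Lib.OddCorr
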