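import Cfsg.Agent.Lib.Glauberman.SubgroupLayer
import Cfsg.Agent.Lib.CharClifford.Correspondence

/-!
# The invariant character above an invariant character of an abelian section
-/

set_option autoImplicit false
set_option linter.unusedSectionVars false

namespace Cfsg.Agent.Lib.OddCorr

open Cfsg Cfsg.Agent.Lib.Char Cfsg.Agent.Lib.CharClifford Cfsg.Agent.Lib.Glauberman

universe u

theorem mem_of_pow_mem_of_coprime {A : Type*} [Group A] (B : Subgroup A) {x : A} {m n : ℕ}
    (hm : x ^ m ∈ B) (hn : x ^ n ∈ B) (h : m.Coprime n) : x ∈ B := by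
  have h1 : x ^ ((m : ℤ) * Int.gcdA m n + (n : ℤ) * Int.gcdB m n) ∈ B := by
    rw [_root_.zpow_add, zpow_mul, zpow_mul, zpow_natCast, zpow_natCast]
    exact B.mul_mem (B.zpow_mem hm _) (B.zpow_mem hn _)
  rwa [← Int.gcd_eq_gcd_ab, Int.gcd_natCast_natCast, show Nat.gcd m n = 1 from h, Nat.cast_one,
    zpow_one] at h1

theorem pow_card_mem_of_prod {A : Type*} [CommGroup A] (B : Subgroup A) {ι : Type*} [Fintype ι]
    (f : ι → A) {l : A} (h : ∀ i, f i * l⁻¹ ∈ B) (h1 : ∏ i, f i = 1) : l ^ Fintype.card ι ∈ B := by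
  have h2 : (∏ i, f i * l⁻¹) ∈ B := B.prod_mem fun i _ => h i
  rwa [Finset.prod_mul_distrib, h1, Finset.prod_const, Finset.card_univ, one_mul, inv_pow,
    inv_mem_iff] at h2

variable {G : Type u} [Group G] [Fintype G] {S : Type u} [Group S] [Finite S]

/-- The standing hypotheses. -/
structure Cfg (a : S →* MulAut G) (K L H : Subgroup G) : Prop where
  hLK : L ≤ K
  hLH : L ≤ H
  inter : ∀ g ∈ K, g ∈ H → g ∈ L
  prod : ∀ g : G, ∃ h ∈ H, ∃ k ∈ K, g = h * k
  comm : ∀ x ∈ K, ∀ y ∈ K, x * y * x⁻¹ * y⁻¹ ∈ L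
  odd : Odd (Nat.card G)
  solv : Group.IsSolvable G
  stabK : ∀ x : S, ∀ k ∈ K, a x k ∈ K
  stabL : ∀ x : S, ∀ l ∈ L, a x l ∈ L
  triv : ∀ x : S, ∀ h ∈ H, h⁻¹ * a x h ∈ L
  fpf : ∀ k ∈ K, (∀ x : S, k⁻¹ * a x k ∈ L) → k ∈ L
  cop : (L.relIndex K).Coprime (Nat.card S)
  copG : (Nat.card G).Coprime (Nat.card S)

variable {a : S →* MulAut G} {K L H : Subgroup G} (cfg : Cfg a K L H)

include cfg

theorem Cfg.stabH : ∀ x : S, ∀ h ∈ H, a x h ∈ H := fun x h hh => by
  have := H.mul_mem hh (cfg.hLH (cfg.triv x h hh))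
  rwa [mul_inv_cancel_left] at this

variable [K.Normal] [L.Normal]

theorem Cfg.quot_comm : ∀ x y : K ⧸ L.subgroupOf K, x * y = y * x := by
  refine fun x y => QuotientGroup.induction_on x fun p => QuotientGroup.induction_on y fun q => ?_
  rw [← QuotientGroup.mk_mul, ← QuotientGroup.mk_mul, QuotientGroup.eq, Subgroup.mem_subgroupOf]
  simp only [Subgroup.coe_mul, Subgroup.coe_inv, _root_.mul_inv_rev]
  have h := cfg.comm ((q : G)⁻¹) (K.inv_mem q.2) ((p : G)⁻¹) (K.inv_mem p.2)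
  simpa only [inv_inv, mul_assoc] using h

theorem Cfg.fixed_dual (m : (K ⧸ L.subgroupOf K) →* ℂˣ)
    (hm : ∀ (x : S) (k : K), m ((⟨a x k, cfg.stabK x k k.2⟩ : K) : K ⧸ L.subgroupOf K) =
      m ((k : K) : K ⧸ L.subgroupOf K)) : m = 1 := by
  letI : CommGroup (K ⧸ L.subgroupOf K) :=
    { (inferInstance : Group (K ⧸ L.subgroupOf K)) with mul_comm := cfg.quot_comm }
  let β := quotAut (L.subgroupOf K) (restrAut a K cfg.stabK) (fun x k hk => cfg.stabL x _ hk)
  have := Fintype.ofFinite S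
  refine MonoidHom.ext fun q => ?_
  have h1 : ∏ x, β x q = 1 := by
    have hfix : ∀ t, β t (∏ x, β x q) = ∏ x, β x q := fun t => by
      rw [map_prod]
      refine Fintype.prod_equiv (Equiv.mulLeft t) _ _ fun x => ?_
      rw [Equiv.coe_mulLeft, map_mul, MulAut.mul_apply]
    obtain ⟨k, hk⟩ := QuotientGroup.mk_surjective (∏ x, β x q)
    rw [← hk] at hfix ⊢
    refine (QuotientGroup.eq_one_iff k).mpr (cfg.fpf k k.2 fun x => ?_)
    have h := hfix x
    change ((restrAut a K cfg.stabK x k : K) : K ⧸ L.subgroupOf K) = _ at h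
    rw [eq_comm, QuotientGroup.eq] at h
    exact h
  have hm' : ∀ x q, m (β x q) = m q := fun x q => QuotientGroup.induction_on q fun k => hm x k
  have h2 : m q ^ Nat.card S = 1 := by
    rw [Nat.card_eq_fintype_card, ← Finset.card_univ, ← Finset.prod_const,
      ← Finset.prod_congr rfl (fun x _ => hm' x q), ← map_prod, h1, map_one]
  have h3 : m q ^ (L.subgroupOf K).index = 1 := by
    rw [Subgroup.index_eq_card, ← map_pow, pow_card_eq_one', map_one]
  have h4 := pow_gcd_eq_one.mpr ⟨h3, h2⟩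
  rw [show Nat.gcd (L.subgroupOf K).index (Nat.card S) = 1 from cfg.cop, pow_one] at h4
  rw [h4, MonoidHom.one_apply]

theorem Cfg.exists_theta [Fintype L] [Fintype K] (φ : IrrCharacter L)
    (hφi : ∀ g : G, conjChar L g (φ : L → ℂ) = φ) (hφs : Inv (restrAut a L cfg.stabL) (φ : L → ℂ)) :
    ∃ θ : IrrCharacter K, classInner (resLe cfg.hLK (θ : K → ℂ)) (φ : L → ℂ) ≠ 0 ∧
      Inv (restrAut a K cfg.stabK) (θ : K → ℂ) ∧ (∀ g : G, conjChar K g (θ : K → ℂ) = θ) ∧
      ∀ θ' : IrrCharacter K, Inv (restrAut a K cfg.stabK) (θ' : K → ℂ) →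
        classInner (resLe cfg.hLK (θ' : K → ℂ)) (φ : L → ℂ) ≠ 0 → θ' = θ := by
  classical
  have := Fintype.ofFinite (L.subgroupOf K)
  set b := restrAut a K cfg.stabK with hb
  have hst : ∀ x : S, ∀ k ∈ L.subgroupOf K, b x k ∈ L.subgroupOf K := fun x k hk => cfg.stabL x _ hk
  set φ' := irrSub cfg.hLK φ with hφ'
  have hφ's : Inv (restrAut b (L.subgroupOf K) hst) (φ' : L.subgroupOf K → ℂ) := fun x k =>
    (congrArg (φ : L → ℂ) (Subtype.ext rfl)).trans (hφs x (Subgroup.subgroupOfEquivOfLe cfg.hLK k))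
  have htr : ∀ θ : IrrCharacter K, classInner (resLe cfg.hLK (θ : K → ℂ)) (φ : L → ℂ) =
      classInner (fun n : L.subgroupOf K => (θ : K → ℂ) n) (φ' : L.subgroupOf K → ℂ) :=
    fun θ => classInner_irrSub cfg.hLK θ φ
  have hcop : (L.subgroupOf K).index.Coprime (Nat.card S) := cfg.cop
  obtain ⟨θ, hθ1, hθ2⟩ := exists_inv_above_abelian hst hφ's cfg.quot_comm hcop
  have huniq : ∀ θ' : IrrCharacter K, Inv b (θ' : K → ℂ) →
      classInner (resLe cfg.hLK (θ' : K → ℂ)) (φ : L → ℂ) ≠ 0 → θ' = θ := by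
    intro θ' hθ' hover
    rw [htr] at hover
    obtain ⟨l, hl⟩ := exists_linear_mul (L.subgroupOf K) cfg.quot_comm θ.2 θ'.2 φ'.2 hθ1 hover
    letI : CommGroup (K ⧸ L.subgroupOf K) :=
      { (inferInstance : Group (K ⧸ L.subgroupOf K)) with mul_comm := cfg.quot_comm }
    let β := quotAut (L.subgroupOf K) b hst
    let St : Subgroup ((K ⧸ L.subgroupOf K) →* ℂˣ) :=
      { carrier := {m | ∀ k : K, (m (k : K ⧸ L.subgroupOf K) : ℂ) * (θ : K → ℂ) k = (θ : K → ℂ) k}
        one_mem' := fun k => by rw [MonoidHom.one_apply, Units.val_one, one_mul]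
        mul_mem' := fun {m m'} hm hm' k => by
          rw [MonoidHom.mul_apply, Units.val_mul, mul_assoc, hm' k, hm k]
        inv_mem' := fun {m} hm k => by
          conv_lhs => rw [← hm k]
          rw [← mul_assoc, ← Units.val_mul, MonoidHom.inv_apply, inv_mul_cancel, Units.val_one, one_mul] }
    have hshift : ∀ x : S, l.comp (β x).toMonoidHom * l⁻¹ ∈ St := by
      intro x k
      have h1 : (l ((b x k : K) : K ⧸ L.subgroupOf K) : ℂ) * (θ : K → ℂ) k =
          (l (k : K ⧸ L.subgroupOf K) : ℂ) * (θ : K → ℂ) k := by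
        rw [← hl k, ← hθ' x k, hl (b x k), hθ2 x k]
      show ((l ((b x k : K) : K ⧸ L.subgroupOf K) * (l (k : K ⧸ L.subgroupOf K))⁻¹ : ℂˣ) : ℂ) * _ = _
      rw [Units.val_mul, mul_right_comm, h1, mul_right_comm, Units.mul_inv, one_mul]
    have := Fintype.ofFinite S
    have hprod : (∏ x, l.comp (β x).toMonoidHom) = 1 := by
      refine cfg.fixed_dual _ fun t k => ?_
      simp only [MonoidHom.finsetProd_apply]
      refine Fintype.prod_equiv (Equiv.mulRight t) _ _ fun x => ?_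
      show l (β x _) = l (β (x * t) _)
      rw [map_mul, MulAut.mul_apply]
      rfl
    have hpow : l ^ Nat.card S ∈ St := by
      rw [Nat.card_eq_fintype_card]
      exact pow_card_mem_of_prod St _ hshift hprod
    have hord : l ^ (L.subgroupOf K).index ∈ St := by
      rw [show l ^ (L.subgroupOf K).index = 1 from MonoidHom.ext fun q => by
        rw [MonoidHom.pow_apply, ← map_pow, Subgroup.index_eq_card, pow_card_eq_one', map_one,
          MonoidHom.one_apply]]
      exact St.one_mem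
    have hlmem : l ∈ St := mem_of_pow_mem_of_coprime St hord hpow hcop
    exact Subtype.ext (funext fun k => (hl k).trans (hlmem k))
  refine ⟨θ, by rw [htr]; exact hθ1, hθ2, fun g => ?_, huniq⟩
  obtain ⟨h, hh, k, hk, rfl⟩ := cfg.prod g
  have hcf := isClassFunction_of_isIrr θ.2
  have hh' : conjChar K h (θ : K → ℂ) = θ := by
    refine congrArg Subtype.val
      (huniq ⟨conjChar K h (θ : K → ℂ), isIrrCharacter_conjChar K h θ.2⟩ ?_ ?_)
    · intro x n
      show (θ : K → ℂ) _ = (θ : K → ℂ) _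
      set l : K := ⟨h⁻¹ * a x h, cfg.hLK (cfg.triv x h hh)⟩
      have hn' : h⁻¹ * a x (n : G) * h ∈ K := by
        simpa using Subgroup.Normal.conj_mem (inferInstance : K.Normal) _ (cfg.stabK x n n.2) h⁻¹
      set n0 : K := ⟨h * (n : G) * h⁻¹, Subgroup.Normal.conj_mem inferInstance _ n.2 h⟩
      rw [← hθ2 x n0]
      set l' : K := ⟨(a x h) * h⁻¹, by
        have := Subgroup.Normal.conj_mem (inferInstance : K.Normal) _ l.2 h
        simpa [l, mul_assoc] using this⟩
      refine (hcf _ l').symm.trans (congrArg (θ : K → ℂ) (Subtype.ext ?_))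
      simp [n0, l', b, restrAut_apply, mul_assoc]
    · have h1 : resLe cfg.hLK (conjChar K h (θ : K → ℂ)) = conjChar L h (resLe cfg.hLK (θ : K → ℂ)) :=
        funext fun n => congrArg (θ : K → ℂ) (Subtype.ext rfl)
      rw [h1]
      conv => enter [1, 2]; rw [← hφi h]
      rw [classInner_conjChar, htr]
      exact hθ1
  funext n
  have h2 := congrFun hh' n
  simp only [conjChar_apply] at h2 ⊢
  refine Eq.trans ?_ h2
  set n0 : K := ⟨h * (n : G) * h⁻¹, Subgroup.Normal.conj_mem inferInstance _ n.2 h⟩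
  set k' : K := ⟨h * k * h⁻¹, Subgroup.Normal.conj_mem inferInstance _ hk h⟩
  rw [← hcf n0 k']
  exact congrArg (θ : K → ℂ) (Subtype.ext (by simp [n0, k', mul_assoc]))

end Cfsg.Agent.Lib.OddCorr
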