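import Cfsg.Agent.Lib.OddCorr.Fixed
import Cfsg.Agent.Lib.OddCorr.Matrices
import Cfsg.Agent.Lib.OddCorr.Theta

/-!
# The matrix data attached to an abelian section with invariant characters
-/

set_option autoImplicit false
set_option linter.unusedSectionVars false

open scoped Kronecker

namespace Cfsg.Agent.Lib.OddCorr

open Cfsg Cfsg.Agent.Lib.Char Cfsg.Agent.Lib.CharClifford Cfsg.Agent.Lib.Glauberman Matrix

universe u

variable {G : Type u} [Group G] [Fintype G]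

/-- Matrix data for a pair of invariant characters `φ` of `L` and `θ` of `K`. -/
structure Good (K L H : Subgroup G) [K.Normal] (hLK : L ≤ K) (φ : L → ℂ) (θ : K → ℂ) where
  n : ℕ
  d : ℕ
  σ : L →* Matrix (Fin d) (Fin d) ℂ
  ρ : K →* Matrix (Fin n × Fin d) (Fin n × Fin d) ℂ
  trace_σ : ∀ l, (σ l).trace = φ l
  trace_ρ : ∀ k, (ρ k).trace = θ k
  res : ∀ l, ρ (Subgroup.inclusion hLK l) = (1 : Matrix (Fin n) (Fin n) ℂ) ⊗ₖ σ l
  J : Matrix (Fin n) (Fin n) ℂ
  sq : J * J = 1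
  tr : J.trace = 1
  N : H → (Matrix (Fin n) (Fin n) ℂ)ˣ
  R : H → (Matrix (Fin d) (Fin d) ℂ)ˣ
  intertwine : ∀ (h : H) (k : K),
    ((N h : Matrix (Fin n) (Fin n) ℂ) ⊗ₖ (R h : Matrix (Fin d) (Fin d) ℂ)) * ρ k =
      ρ (MulAut.conjNormal (h : G) k) *
        ((N h : Matrix (Fin n) (Fin n) ℂ) ⊗ₖ (R h : Matrix (Fin d) (Fin d) ℂ))
  comm : ∀ h, (N h : Matrix (Fin n) (Fin n) ℂ) * J = J * N h
  one : ∀ h, ((N h : Matrix (Fin n) (Fin n) ℂ) * J).trace *
    (J * (((N h)⁻¹ : (Matrix (Fin n) (Fin n) ℂ)ˣ) : Matrix (Fin n) (Fin n) ℂ)).trace = 1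

variable {S : Type u} [Group S] [Finite S] {a : S →* MulAut G} {K L H : Subgroup G} (cfg : Cfg a K L H)
  [K.Normal] [L.Normal]

theorem Cfg.exists_good [Fintype L] [Fintype K] (φ : IrrCharacter L)
    (hφi : ∀ g : G, conjChar L g (φ : L → ℂ) = φ) (hφs : Inv (restrAut a L cfg.stabL) (φ : L → ℂ))
    (θ : IrrCharacter K) (hover : classInner (resLe cfg.hLK (θ : K → ℂ)) (φ : L → ℂ) ≠ 0)
    (hθs : Inv (restrAut a K cfg.stabK) (θ : K → ℂ)) (hθi : ∀ g : G, conjChar K g (θ : K → ℂ) = θ) :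
    Nonempty (Good K L H cfg.hLK (φ : L → ℂ) (θ : K → ℂ)) := by
  classical
  obtain ⟨d, ρ₀, hρ₀irr, hρ₀⟩ := φ.2
  let σ : L →* Matrix (Fin d) (Fin d) ℂ :=
    (LinearMap.toMatrixAlgEquiv (Pi.basisFun ℂ (Fin d))).toAlgHom.toMonoidHom.comp ρ₀
  have hσ : ∀ l, (σ l).trace = (φ : L → ℂ) l := fun l => by
    rw [← hρ₀, Representation.character, LinearMap.trace_eq_matrix_trace ℂ (Pi.basisFun ℂ (Fin d))]
    rfl
  have hσirr : IsIrrCharacter L fun l => (σ l).trace := by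
    rw [funext hσ]; exact φ.2
  have hd : (φ : L → ℂ) 1 = (d : ℂ) := by
    rw [← hσ 1, map_one, Matrix.trace_one, Fintype.card_fin]
  haveI : Nonempty (Fin d) := ⟨⟨0, Nat.pos_of_ne_zero fun h0 =>
    irr_degree_ne_zero φ.2 (by rw [hd, h0, Nat.cast_zero])⟩⟩
  obtain ⟨n, hn⟩ := classInner_natCast
    (show IsCharacter L (resLe cfg.hLK (θ : K → ℂ)) from
      isCharacter_comp (isCharacter_of_isIrr θ.2) (Subgroup.inclusion cfg.hLK))
    (isCharacter_of_isIrr φ.2)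
  haveI : Nonempty (Fin n) := ⟨⟨0, Nat.pos_of_ne_zero fun h0 => hover (by rw [hn, h0, Nat.cast_zero])⟩⟩
  have hres := restrict_stabilized L φ.2 K cfg.hLK (fun t _ => hφi t) θ.2 hover
  rw [hn] at hres
  let σ' : L →* Matrix (Fin n × Fin d) (Fin n × Fin d) ℂ :=
    { toFun := fun l => (1 : Matrix (Fin n) (Fin n) ℂ) ⊗ₖ σ l
      map_one' := by rw [map_one, Matrix.one_kronecker_one]
      map_mul' := fun l l' => by rw [map_mul, ← Matrix.mul_kronecker_mul, one_mul] }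
  obtain ⟨ρ, hρ, hρL⟩ := exists_rep_extending (isCharacter_of_isIrr θ.2) (Subgroup.inclusion cfg.hLK) σ'
    fun l => by
      show ((1 : Matrix (Fin n) (Fin n) ℂ) ⊗ₖ σ l).trace = _
      rw [Matrix.trace_kronecker, Matrix.trace_one, Fintype.card_fin, hσ]
      exact (congrFun hres l).symm
  have hρirr : IsIrrCharacter K fun k => (ρ k).trace := by rw [funext hρ]; exact θ.2
  have hρL' : ∀ l, ρ (Subgroup.inclusion cfg.hLK l) = (1 : Matrix (Fin n) (Fin n) ℂ) ⊗ₖ σ l := hρL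
  -- every symmetry of the two characters is realised by a product
  have inter : ∀ (fK : K →* K) (fL : L →* L),
      (∀ l, fK (Subgroup.inclusion cfg.hLK l) = Subgroup.inclusion cfg.hLK (fL l)) →
      (∀ k, (θ : K → ℂ) (fK k) = (θ : K → ℂ) k) → (∀ l, (φ : L → ℂ) (fL l) = (φ : L → ℂ) l) →
      ∃ (N : (Matrix (Fin n) (Fin n) ℂ)ˣ) (R : (Matrix (Fin d) (Fin d) ℂ)ˣ), ∀ k,
        (kronUnit N R : Matrix (Fin n × Fin d) (Fin n × Fin d) ℂ) * ρ k =
          ρ (fK k) * (kronUnit N R : Matrix (Fin n × Fin d) (Fin n × Fin d) ℂ) := by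
    intro fK fL hc hθf hφf
    obtain ⟨P, hP⟩ := exists_conj ρ (ρ.comp fK) fun k => by
      rw [MonoidHom.comp_apply, hρ, hρ, hθf]
    have hP1 : ∀ k, (P : Matrix (Fin n × Fin d) (Fin n × Fin d) ℂ) * ρ k = ρ (fK k) * P := fun k => by
      rw [show ρ (fK k) = _ from hP k, mul_assoc _ _ (P : Matrix (Fin n × Fin d) (Fin n × Fin d) ℂ),
        Units.inv_mul, mul_one]
    obtain ⟨N, R, hNR, -⟩ := exists_factor σ hσirr fL (fun l => by rw [hσ, hσ, hφf]) P fun l => by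
      rw [← hρL', ← hρL', hP1, hc]
    exact ⟨N, R, fun k => by
      rw [show (kronUnit N R : Matrix (Fin n × Fin d) (Fin n × Fin d) ℂ) = P from hNR.symm]
      exact hP1 k⟩
  -- the projective representation of the section
  have hφconj : ∀ (g : G) (l : L), (φ : L → ℂ) (MulAut.conjNormal g l) = (φ : L → ℂ) l := fun g l =>
    (congrArg (φ : L → ℂ) (Subtype.ext (MulAut.conjNormal_apply g l))).trans (congrFun (hφi g) l)
  have hθconj : ∀ (g : G) (k : K), (θ : K → ℂ) (MulAut.conjNormal g k) = (θ : K → ℂ) k := fun g k =>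
    (congrArg (θ : K → ℂ) (Subtype.ext (MulAut.conjNormal_apply g k))).trans (congrFun (hθi g) k)
  have hfac : ∀ k : K, ∃ (N : (Matrix (Fin n) (Fin n) ℂ)ˣ) (R : (Matrix (Fin d) (Fin d) ℂ)ˣ),
      ρ k = (N : Matrix (Fin n) (Fin n) ℂ) ⊗ₖ (R : Matrix (Fin d) (Fin d) ℂ) := by
    intro k
    obtain ⟨N, R, h, -⟩ := exists_factor σ hσirr (MulAut.conjNormal (k : G)).toMonoidHom
      (fun l => by rw [hσ, hσ]; exact hφconj _ l) (ρ.toHomUnits k) fun l => by
        show ρ k * _ = _ * ρ k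
        rw [← hρL', ← hρL', ← map_mul, ← map_mul]
        refine congrArg ρ (Subtype.ext ?_)
        simp [MulAut.conjNormal_apply]
    exact ⟨N, R, h⟩
  choose Nk Rk hNRk using hfac
  letI : CommGroup (K ⧸ L.subgroupOf K) :=
    { (inferInstance : Group (K ⧸ L.subgroupOf K)) with mul_comm := cfg.quot_comm }
  letI : Fintype (K ⧸ L.subgroupOf K) := Fintype.ofFinite _
  let M : K ⧸ L.subgroupOf K → (Matrix (Fin n) (Fin n) ℂ)ˣ := fun q => Nk q.out
  have hrep : ∀ k : K, ∃ l : L, ρ k = ((M (k : K ⧸ L.subgroupOf K)) : Matrix (Fin n) (Fin n) ℂ) ⊗ₖ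
      ((Rk (k : K ⧸ L.subgroupOf K).out : Matrix (Fin d) (Fin d) ℂ) * σ l) := by
    intro k
    have hm : ((k : K ⧸ L.subgroupOf K).out)⁻¹ * k ∈ L.subgroupOf K :=
      QuotientGroup.eq.mp (QuotientGroup.out_eq' _)
    refine ⟨⟨_, hm⟩, ?_⟩
    conv_lhs => rw [show k = (k : K ⧸ L.subgroupOf K).out *
      Subgroup.inclusion cfg.hLK (⟨_, hm⟩ : L) from Subtype.ext (by simp)]
    rw [map_mul, hρL', hNRk, ← Matrix.mul_kronecker_mul, mul_one]
  have hne : ∀ (R : (Matrix (Fin d) (Fin d) ℂ)ˣ) (l : L),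
      (R : Matrix (Fin d) (Fin d) ℂ) * σ l ≠ 0 := fun R l =>
    (R * σ.toHomUnits l).ne_zero
  have hM : ProjIrr M := by
    refine ⟨fun p q => ?_, fun X hX => ?_, inferInstance⟩
    · obtain ⟨l, hl⟩ := hrep (p.out * q.out)
      rw [QuotientGroup.mk_mul, QuotientGroup.out_eq', QuotientGroup.out_eq', map_mul, hNRk, hNRk,
        ← Matrix.mul_kronecker_mul] at hl
      exact left_eq_smul_of_kron_eq hl (Rk p.out * Rk q.out).ne_zero
    · obtain ⟨c, hc⟩ := scalar_of_irr ρ hρirr (X ⊗ₖ (1 : Matrix (Fin d) (Fin d) ℂ)) fun k => by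
        obtain ⟨l, hl⟩ := hrep k
        rw [hl, ← Matrix.mul_kronecker_mul, ← Matrix.mul_kronecker_mul, one_mul, mul_one, hX]
      refine ⟨c, kron_one_inj (n := Fin d) ?_⟩
      rw [hc, Matrix.smul_kronecker, Matrix.one_kronecker_one]
  have hnorm : ∀ (fK : K →* K) (β : MulAut (K ⧸ L.subgroupOf K)) (N : (Matrix (Fin n) (Fin n) ℂ)ˣ)
      (R : (Matrix (Fin d) (Fin d) ℂ)ˣ),
      (∀ k : K, β (k : K ⧸ L.subgroupOf K) = ((fK k : K) : K ⧸ L.subgroupOf K)) →
      (∀ k, (kronUnit N R : Matrix (Fin n × Fin d) (Fin n × Fin d) ℂ) * ρ k =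
          ρ (fK k) * (kronUnit N R : Matrix (Fin n × Fin d) (Fin n × Fin d) ℂ)) →
      Norms M N β := by
    intro fK β N R hβ hNR q
    have h := hNR q.out
    obtain ⟨l, hl⟩ := hrep (fK q.out)
    rw [hNRk, hl, ← hβ, QuotientGroup.out_eq'] at h
    change ((N : Matrix (Fin n) (Fin n) ℂ) ⊗ₖ (R : Matrix (Fin d) (Fin d) ℂ)) * _ =
      _ * ((N : Matrix (Fin n) (Fin n) ℂ) ⊗ₖ (R : Matrix (Fin d) (Fin d) ℂ)) at h
    rw [← Matrix.mul_kronecker_mul, ← Matrix.mul_kronecker_mul] at h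
    exact left_eq_smul_of_kron_eq h (R * Rk q.out).ne_zero
  -- the coprime operators
  have hsI := fun s : S => inter (restrAut a K cfg.stabK s).toMonoidHom
    (restrAut a L cfg.stabL s).toMonoidHom (fun l => Subtype.ext rfl) (hθs s) (hφs s)
  choose Ns Rs hNRs using hsI
  have hst : ∀ s : S, ∀ k ∈ L.subgroupOf K, restrAut a K cfg.stabK s k ∈ L.subgroupOf K :=
    fun s k hk => cfg.stabL s _ hk
  let β := quotAut (L.subgroupOf K) (restrAut a K cfg.stabK) hst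
  have hNs : ∀ s, Norms M (Ns s) (β s) := fun s =>
    hnorm (restrAut a K cfg.stabK s).toMonoidHom (β s) (Ns s) (Rs s) (fun k => rfl) (hNRs s)
  have hNmul : ∀ s t, ∃ c : ℂ, (Ns (s * t) : Matrix (Fin n) (Fin n) ℂ) =
      c • ((Ns s : Matrix (Fin n) (Fin n) ℂ) * Ns t) := by
    intro s t
    obtain ⟨c, hc⟩ := eq_smul_of_intertwine ρ hρirr (fun k => restrAut a K cfg.stabK (s * t) k)
      (kronUnit (Ns s) (Rs s) * kronUnit (Ns t) (Rs t)) (kronUnit (Ns (s * t)) (Rs (s * t)))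
      (fun k => by
        rw [Units.val_mul, mul_assoc, hNRs t k, ← mul_assoc, hNRs s, mul_assoc]
        simp only [map_mul, MulAut.mul_apply, MulEquiv.coe_toMonoidHom]) (fun k => hNRs _ k)
    change (Ns (s * t) : Matrix (Fin n) (Fin n) ℂ) ⊗ₖ _ = c • (((Ns s : Matrix (Fin n) (Fin n) ℂ) ⊗ₖ _) *
      ((Ns t : Matrix (Fin n) (Fin n) ℂ) ⊗ₖ _)) at hc
    rw [← Matrix.mul_kronecker_mul, ← Matrix.smul_kronecker] at hc
    obtain ⟨c', hc'⟩ := left_eq_smul_of_kron_eq hc (Rs (s * t)).ne_zero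
    exact ⟨c' * c, by rw [hc', smul_smul]⟩
  have hodd : Odd (Nat.card (K ⧸ L.subgroupOf K)) :=
    cfg.odd.of_dvd_nat ((Subgroup.card_quotient_dvd_card _).trans (Subgroup.card_subgroup_dvd_card K))
  have hcop : (Nat.card (K ⧸ L.subgroupOf K)).Coprime (Nat.card S) := by
    rw [← Subgroup.index_eq_card]; exact cfg.cop
  obtain ⟨J, hJ, hJfix, hJuniq⟩ := exists_fixed_isInv hM β Ns hNs hNmul hodd hcop fun q => by
    refine QuotientGroup.induction_on q fun k hk => (QuotientGroup.eq_one_iff k).mpr ?_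
    refine cfg.fpf k k.2 fun s => ?_
    have h := hk s
    change ((restrAut a K cfg.stabK s k : K) : K ⧸ L.subgroupOf K) = _ at h
    rw [eq_comm, QuotientGroup.eq] at h
    exact h
  -- the complement
  let cj : H →* MulAut K := (MulAut.conjNormal (H := K)).comp H.subtype
  have hhI := fun h : H => inter (cj h).toMonoidHom (MulAut.conjNormal (h : G) : MulAut L).toMonoidHom
    (fun l => Subtype.ext (by simp [cj, MulAut.conjNormal_apply])) (hθconj h) (hφconj h)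
  choose Nh Rh hNRh using hhI
  have hsth : ∀ h : H, ∀ k ∈ L.subgroupOf K, cj h k ∈ L.subgroupOf K := fun h k hk => by
    rw [Subgroup.mem_subgroupOf] at hk ⊢
    show ((cj h k : K) : G) ∈ L
    rw [show ((cj h k : K) : G) = (h : G) * k * (h : G)⁻¹ from MulAut.conjNormal_apply _ k]
    exact Subgroup.Normal.conj_mem inferInstance _ hk _
  let γ := quotAut (L.subgroupOf K) cj hsth
  have hNh : ∀ h, Norms M (Nh h) (γ h) := fun h =>
    hnorm (cj h).toMonoidHom (γ h) (Nh h) (Rh h) (fun k => rfl) (hNRh h)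
  have hcommh : ∀ h, (Nh h : Matrix (Fin n) (Fin n) ℂ) * J = J * Nh h := fun h =>
    conj_fixed_isInv hM β Ns hNs hNmul hJ hJfix hJuniq (hNh h) fun s => by
      let l : L := ⟨(h : G)⁻¹ * a s h, cfg.triv s h h.2⟩
      obtain ⟨c, hc⟩ := eq_smul_of_intertwine ρ hρirr
        (fun k => restrAut a K cfg.stabK s (cj h k))
        (kronUnit (Nh h) (Rh h) * ρ.toHomUnits (Subgroup.inclusion cfg.hLK l) * kronUnit (Ns s) (Rs s))
        (kronUnit (Ns s) (Rs s) * kronUnit (Nh h) (Rh h))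
        (fun k => by
          show _ * ρ (Subgroup.inclusion cfg.hLK l) * _ * ρ k =
            _ * (_ * ρ (Subgroup.inclusion cfg.hLK l) * _)
          rw [mul_assoc _ _ (ρ k), hNRs s k, mul_assoc (kronUnit (Nh h) (Rh h)).val,
            ← mul_assoc (ρ _) (ρ _), ← map_mul,
            show Subgroup.inclusion cfg.hLK l * (restrAut a K cfg.stabK s).toMonoidHom k =
              (Subgroup.inclusion cfg.hLK l * (restrAut a K cfg.stabK s).toMonoidHom k *
                (Subgroup.inclusion cfg.hLK l)⁻¹) * Subgroup.inclusion cfg.hLK l by group,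
            map_mul, mul_assoc (ρ _) (ρ _), ← mul_assoc (kronUnit (Nh h) (Rh h)).val, hNRh h,
            show (cj h).toMonoidHom (Subgroup.inclusion cfg.hLK l *
              (restrAut a K cfg.stabK s).toMonoidHom k * (Subgroup.inclusion cfg.hLK l)⁻¹) =
              restrAut a K cfg.stabK s (cj h k) from Subtype.ext (by
                simp [cj, l, MulAut.conjNormal_apply, restrAut_apply, mul_assoc])]
          simp only [mul_assoc])
        (fun k => by
          rw [Units.val_mul, mul_assoc, hNRh h k, ← mul_assoc, hNRs s, mul_assoc]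
          rfl)
      change ((Ns s : Matrix (Fin n) (Fin n) ℂ) ⊗ₖ _) * ((Nh h : Matrix (Fin n) (Fin n) ℂ) ⊗ₖ _) =
        c • (((Nh h : Matrix (Fin n) (Fin n) ℂ) ⊗ₖ _) * ρ (Subgroup.inclusion cfg.hLK l) *
          ((Ns s : Matrix (Fin n) (Fin n) ℂ) ⊗ₖ _)) at hc
      rw [hρL', ← Matrix.mul_kronecker_mul, ← Matrix.mul_kronecker_mul, ← Matrix.mul_kronecker_mul,
        mul_one, ← Matrix.smul_kronecker] at hc
      obtain ⟨c', hc'⟩ := left_eq_smul_of_kron_eq hc (Rs s * Rh h).ne_zero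
      exact ⟨c' * c, by rw [hc', smul_smul]⟩
  have hone : ∀ h, ((Nh h : Matrix (Fin n) (Fin n) ℂ) * J).trace *
      (J * (((Nh h)⁻¹ : (Matrix (Fin n) (Fin n) ℂ)ˣ) : Matrix (Fin n) (Fin n) ℂ)).trace = 1 := by
    intro h
    refine trace_normalizer hM (Nh h * hJ.unit) (fun μ => μ⁻¹.comp (γ h).symm.toMonoidHom)
      (fun μ Y hY => ?_) fun μ hμ => ?_
    · have h2 := (hNh h).map_W hM (hJ.map μ Y hY)
      show (Nh h : Matrix (Fin n) (Fin n) ℂ) * J * Y *
        (J * (((Nh h)⁻¹ : (Matrix (Fin n) (Fin n) ℂ)ˣ) : Matrix (Fin n) (Fin n) ℂ)) ∈ _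
      simpa only [mul_assoc] using h2
    · refine eq_one_of_sq hodd fun q => ?_
      have h1 : ∀ q, μ (γ h⁻¹ q) = (μ q)⁻¹ := fun q => by
        have := DFunLike.congr_fun hμ q
        rw [show γ h⁻¹ q = (γ h).symm q by rw [map_inv, MulAut.inv_def]]
        rw [← this]
        exact (inv_inv _).symm
      have h2 : ∀ (i : ℕ) (q), μ (γ (h⁻¹ ^ (2 * i)) q) = μ q := by
        intro i
        induction i with
        | zero => intro q; rw [Nat.mul_zero, pow_zero, map_one, MulAut.one_apply]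
        | succ i ih =>
          intro q
          rw [show h⁻¹ ^ (2 * (i + 1)) = h⁻¹ * (h⁻¹ * h⁻¹ ^ (2 * i)) by
            rw [← pow_succ', ← pow_succ']; ring_nf, map_mul, map_mul, MulAut.mul_apply,
            MulAut.mul_apply, h1, h1, inv_inv, ih]
      obtain ⟨i, hi⟩ : Odd (orderOf (h⁻¹)) :=
        cfg.odd.of_dvd_nat ((orderOf_dvd_natCard (h⁻¹)).trans (Subgroup.card_subgroup_dvd_card H))
      have h3 : h⁻¹ * h⁻¹ ^ (2 * i) = 1 := by rw [← pow_succ', ← hi, pow_orderOf_eq_one]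
      have h4 := h1 (γ (h⁻¹ ^ (2 * i)) q)
      rw [← MulAut.mul_apply, ← map_mul, h3, map_one, MulAut.one_apply, h2] at h4
      exact h4
  exact ⟨⟨n, d, σ, ρ, hσ, hρ, hρL', J, hJ.sq, hJ.tr, Nh, Rh, hNRh, hcommh, hone⟩⟩

end Cfsg.Agent.Lib.OddCorr
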