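import Cfsg.Agent.Lib.OddCorr.Inverter

/-!
# Inverters fixed by a coprime group of operators
-/

set_option autoImplicit false
set_option linter.unusedSectionVars false

namespace Cfsg.Agent.Lib.OddCorr

open Matrix

universe u

variable {Q : Type u} [CommGroup Q] [Fintype Q] {n : Type} [Fintype n] [DecidableEq n]
  {M : Q → (Matrix n n ℂ)ˣ}

theorem conj_smul_units {N N' : (Matrix n n ℂ)ˣ} {c : ℂ} [Nonempty n]
    (h : (N' : Matrix n n ℂ) = c • (N : Matrix n n ℂ)) (Y : Matrix n n ℂ) :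
    (N' : Matrix n n ℂ) * Y * ((N'⁻¹ : (Matrix n n ℂ)ˣ) : Matrix n n ℂ) =
      (N : Matrix n n ℂ) * Y * ((N⁻¹ : (Matrix n n ℂ)ˣ) : Matrix n n ℂ) := by
  have hc0 : c ≠ 0 := by rintro rfl; rw [zero_smul] at h; exact N'.ne_zero h
  have h2 : ((N'⁻¹ : (Matrix n n ℂ)ˣ) : Matrix n n ℂ) = c⁻¹ • ((N⁻¹ : (Matrix n n ℂ)ˣ) : Matrix n n ℂ) := by
    refine Units.inv_eq_of_mul_eq_one_right ?_
    rw [h, smul_mul_assoc, mul_smul_comm, smul_smul, mul_inv_cancel₀ hc0, one_smul, Units.mul_inv]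
  rw [h, h2, smul_mul_assoc, mul_smul_comm, smul_mul_assoc, smul_smul, inv_mul_cancel₀ hc0, one_smul]

variable (hM : ProjIrr M)

include hM

theorem Norms.inv {N : (Matrix n n ℂ)ˣ} {β : MulAut Q} (hN : Norms M N β) : Norms M N⁻¹ β⁻¹ := by
  intro q
  obtain ⟨c, hc⟩ := hN (β⁻¹ q)
  rw [MulAut.apply_inv_self] at hc
  haveI := hM.nonempty
  have hc0 : c ≠ 0 := by
    rintro rfl; rw [zero_smul, ← Units.val_mul] at hc; exact (N * M (β⁻¹ q)).ne_zero hc
  refine ⟨c⁻¹, ?_⟩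
  have := congrArg (fun X => ((N⁻¹ : (Matrix n n ℂ)ˣ) : Matrix n n ℂ) * X *
    ((N⁻¹ : (Matrix n n ℂ)ˣ) : Matrix n n ℂ)) hc
  simp only [mul_smul_comm, smul_mul_assoc] at this
  simp only [mul_assoc, Units.inv_mul_cancel_left, Units.mul_inv, mul_one] at this
  rw [this, smul_smul, inv_mul_cancel₀ hc0, one_smul]

theorem conj_weight_eq {μ : Q →* ℂˣ} {E F E' F' : Matrix n n ℂ} (hE : E ∈ W M μ)
    (hEF : E * F = 1) (hE' : E' ∈ W M μ) (hEF' : E' * F' = 1) (J : Matrix n n ℂ) :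
    E' * J * F' = E * J * F := by
  haveI := hM.nonempty
  obtain ⟨c, hc⟩ := eq_smul_of_mem hM hE (fun h => matrix_one_ne_zero hM (by
    rw [← hEF, h, zero_mul])) hE'
  exact conj_smul_units (N := ⟨E, F, hEF, mul_eq_one_comm.mp hEF⟩)
    (N' := ⟨E', F', hEF', mul_eq_one_comm.mp hEF'⟩) hc J

/-- The weights which occur. -/
noncomputable def supp : Subgroup (Q →* ℂˣ) where
  carrier := {μ | W M μ ≠ ⊥}
  one_mem' := (Submodule.ne_bot_iff _).mpr ⟨1, one_mem_W, matrix_one_ne_zero hM⟩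
  mul_mem' := fun {μ ν} hμ hν => by
    obtain ⟨Y, hY, hY0⟩ := (Submodule.ne_bot_iff _).mp hμ
    obtain ⟨Z, hZ, hZ0⟩ := (Submodule.ne_bot_iff _).mp hν
    exact (Submodule.ne_bot_iff _).mpr
      ⟨Y * Z, mul_mem_W hY hZ, mul_ne_zero_of_weight hM hY hY0 hZ hZ0⟩
  inv_mem' := fun {μ} hμ => by
    obtain ⟨Y, hY, hY0⟩ := (Submodule.ne_bot_iff _).mp hμ
    obtain ⟨Z, hZ, hYZ, -⟩ := exists_inv hM hY hY0
    exact (Submodule.ne_bot_iff _).mpr
      ⟨Z, hZ, fun h => matrix_one_ne_zero hM (by rw [← hYZ, h, mul_zero])⟩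

theorem exists_weight_unit (μ : supp hM) :
    ∃ E : (Matrix n n ℂ)ˣ, (E : Matrix n n ℂ) ∈ W M μ.1 ∧
      ((E⁻¹ : (Matrix n n ℂ)ˣ) : Matrix n n ℂ) ∈ W M μ.1⁻¹ := by
  obtain ⟨Y, hY, hY0⟩ := (Submodule.ne_bot_iff _).mp μ.2
  obtain ⟨Z, hZ, hYZ, hZY⟩ := exists_inv hM hY hY0
  exact ⟨⟨Y, Z, hYZ, hZY⟩, hY, hZ⟩

variable {S : Type u} [Group S] [Finite S] (β : S →* MulAut Q) (N : S → (Matrix n n ℂ)ˣ)
  (hN : ∀ s, Norms M (N s) (β s))
  (hNmul : ∀ s t, ∃ c : ℂ, (N (s * t) : Matrix n n ℂ) = c • ((N s : Matrix n n ℂ) * N t))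

include hN hNmul

/-- There is exactly one inverter fixed by a coprime group of operators fixing no nontrivial element. -/
theorem exists_fixed_isInv (hodd : Odd (Nat.card Q)) (hcop : (Nat.card Q).Coprime (Nat.card S))
    (hfpf : ∀ q, (∀ s, β s q = q) → q = 1) :
    ∃ J, IsInv M J ∧
      (∀ s, (N s : Matrix n n ℂ) * J * (((N s)⁻¹ : (Matrix n n ℂ)ˣ) : Matrix n n ℂ) = J) ∧
      ∀ J', IsInv M J' →
        (∀ s, (N s : Matrix n n ℂ) * J' * (((N s)⁻¹ : (Matrix n n ℂ)ˣ) : Matrix n n ℂ) = J') →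
        J' = J := by
  classical
  haveI := hM.nonempty
  have hdual : ∀ μ : Q →* ℂˣ, (∀ s q, μ (β s q) = μ q) → μ = 1 := by
    intro μ hμ
    have := Fintype.ofFinite S
    refine MonoidHom.ext fun q => ?_
    have h1 : ∏ s, β s q = 1 := hfpf _ fun t => by
      rw [map_prod]
      refine Fintype.prod_equiv (Equiv.mulLeft t) _ _ fun s => ?_
      rw [Equiv.coe_mulLeft, map_mul, MulAut.mul_apply]
    have h2 : μ q ^ Nat.card S = 1 := by
      rw [Nat.card_eq_fintype_card, ← Finset.card_univ, ← Finset.prod_const,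
        ← Finset.prod_congr rfl (fun s _ => hμ s q), ← map_prod, h1, map_one]
    have h3 : μ q ^ Nat.card Q = 1 := by rw [← map_pow, pow_card_eq_one', map_one]
    rw [MonoidHom.one_apply]
    rw [← pow_one (μ q), ← hcop]
    exact pow_gcd_eq_one.mpr ⟨h3, h2⟩
  choose E hE hE' using exists_weight_unit hM
  let X : Type u := ULift.{u} {J : Matrix n n ℂ // IsInv M J}
  haveI : Nonempty X := by
    obtain ⟨J, hJ⟩ := exists_isInv hM hodd
    exact ⟨⟨⟨J, hJ⟩⟩⟩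
  have hconj : ∀ (μ : supp hM) (J : Matrix n n ℂ), IsInv M J →
      IsInv M ((E μ : Matrix n n ℂ) * J * (((E μ)⁻¹ : (Matrix n n ℂ)ˣ) : Matrix n n ℂ)) :=
    fun μ J hJ => hJ.conj hM (hE μ) (hE' μ) (Units.mul_inv _)
  letI : MulAction (supp hM) X :=
    { smul := fun μ J => ⟨⟨_, hconj μ J.down.1 J.down.2⟩⟩
      one_smul := fun J => ULift.ext _ _ (Subtype.ext (by
        show (E 1 : Matrix n n ℂ) * J.down.1 * (((E 1)⁻¹ : (Matrix n n ℂ)ˣ) : Matrix n n ℂ) = _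
        rw [conj_weight_eq hM (one_mem_W (M := M)) (mul_one 1) (hE 1) (Units.mul_inv _), one_mul, mul_one]))
      mul_smul := fun μ ν J => ULift.ext _ _ (Subtype.ext (by
        show (E (μ * ν) : Matrix n n ℂ) * J.down.1 * (((E (μ * ν))⁻¹ : (Matrix n n ℂ)ˣ) : Matrix n n ℂ) =
          (E μ : Matrix n n ℂ) * ((E ν : Matrix n n ℂ) * J.down.1 * (((E ν)⁻¹ : (Matrix n n ℂ)ˣ) : Matrix n n ℂ)) *
            (((E μ)⁻¹ : (Matrix n n ℂ)ˣ) : Matrix n n ℂ)
        rw [conj_weight_eq hM (mul_mem_W (hE μ) (hE ν)) (F := (((E μ * E ν)⁻¹ : (Matrix n n ℂ)ˣ) : Matrix n n ℂ))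
          (by rw [← Units.val_mul, Units.mul_inv]) (hE (μ * ν)) (Units.mul_inv _)]
        simp only [_root_.mul_inv_rev, Units.val_mul, mul_assoc])) }
  have hNs : ∀ s (J : Matrix n n ℂ), IsInv M J →
      IsInv M ((N s : Matrix n n ℂ) * J * (((N s)⁻¹ : (Matrix n n ℂ)ˣ) : Matrix n n ℂ)) :=
    fun s J hJ => IsInv.normalize hM (hN s) ((hN s).inv hM) hJ
  have hN1 : ∃ c : ℂ, (N 1 : Matrix n n ℂ) = c • 1 := by
    obtain ⟨c, hc⟩ := hNmul 1 1
    rw [one_mul] at hc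
    refine ⟨c⁻¹, ?_⟩
    have h := congrArg (fun X => X * (((N 1)⁻¹ : (Matrix n n ℂ)ˣ) : Matrix n n ℂ)) hc
    simp only [smul_mul_assoc, mul_assoc, Units.mul_inv, mul_one] at h
    have hc0 : c ≠ 0 := by rintro rfl; rw [zero_smul] at h; exact matrix_one_ne_zero hM h
    rw [h, smul_smul, inv_mul_cancel₀ hc0, one_smul]
  letI : MulAction S X :=
    { smul := fun s J => ⟨⟨_, hNs s J.down.1 J.down.2⟩⟩
      one_smul := fun J => ULift.ext _ _ (Subtype.ext (by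
        show (N 1 : Matrix n n ℂ) * J.down.1 * (((N 1)⁻¹ : (Matrix n n ℂ)ˣ) : Matrix n n ℂ) = _
        obtain ⟨c, hc⟩ := hN1
        rw [conj_smul_units (N := 1) (c := c) (by rw [hc, Units.val_one]), inv_one, Units.val_one,
          one_mul, mul_one]))
      mul_smul := fun s t J => ULift.ext _ _ (Subtype.ext (by
        show (N (s * t) : Matrix n n ℂ) * J.down.1 * (((N (s * t))⁻¹ : (Matrix n n ℂ)ˣ) : Matrix n n ℂ) =
          (N s : Matrix n n ℂ) * ((N t : Matrix n n ℂ) * J.down.1 * (((N t)⁻¹ : (Matrix n n ℂ)ˣ) : Matrix n n ℂ)) *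
            (((N s)⁻¹ : (Matrix n n ℂ)ˣ) : Matrix n n ℂ)
        obtain ⟨c, hc⟩ := hNmul s t
        rw [conj_smul_units (N := N s * N t) (c := c) (by rw [hc, Units.val_mul])]
        simp only [_root_.mul_inv_rev, Units.val_mul, mul_assoc])) }
  have hmem : ∀ s (μ : supp hM), μ.1.comp (β s).symm.toMonoidHom ∈ supp hM := fun s μ =>
    (Submodule.ne_bot_iff _).mpr ⟨_, (hN s).map_W hM (hE μ),
      (N s * E μ * (N s)⁻¹).ne_zero⟩
  let φ : S →* MulAut (supp hM) :=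
    { toFun := fun s =>
        { toFun := fun μ => ⟨μ.1.comp (β s).symm.toMonoidHom, hmem s μ⟩
          invFun := fun μ => ⟨μ.1.comp (β s⁻¹).symm.toMonoidHom, hmem s⁻¹ μ⟩
          left_inv := fun μ => Subtype.ext (MonoidHom.ext fun q => by
            show μ.1 ((β s).symm ((β s⁻¹).symm q)) = μ.1 q
            rw [map_inv β, ← MulAut.inv_def, ← MulAut.inv_def, inv_inv, MulAut.inv_apply_self])
          right_inv := fun μ => Subtype.ext (MonoidHom.ext fun q => by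
            show μ.1 ((β s⁻¹).symm ((β s).symm q)) = μ.1 q
            rw [map_inv β, ← MulAut.inv_def, ← MulAut.inv_def, inv_inv, MulAut.apply_inv_self])
          map_mul' := fun μ ν => rfl }
      map_one' := MulEquiv.ext fun μ => Subtype.ext (MonoidHom.ext fun q => by
        show μ.1 ((β 1).symm q) = μ.1 q
        rw [map_one]; rfl)
      map_mul' := fun s t => MulEquiv.ext fun μ => Subtype.ext (MonoidHom.ext fun q => by
        show μ.1 ((β (s * t)).symm q) = μ.1 ((β t).symm ((β s).symm q))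
        rw [map_mul]; rfl) }
  obtain ⟨x, hx⟩ := Glauberman.exists_fixed_point (X := X) φ (fun s μ J => ULift.ext _ _ (Subtype.ext (by
      show (N s : Matrix n n ℂ) * ((E μ : Matrix n n ℂ) * J.down.1 * _) * _ =
        (E (φ s μ) : Matrix n n ℂ) * ((N s : Matrix n n ℂ) * J.down.1 * _) * _
      have h := conj_weight_eq hM ((hN s).map_W hM (hE μ))
        (F := ((((N s) * E μ * (N s)⁻¹)⁻¹ : (Matrix n n ℂ)ˣ) : Matrix n n ℂ))
        (by rw [← Units.val_mul, ← Units.val_mul, Units.mul_inv]) (hE (φ s μ)) (Units.mul_inv _)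
        ((N s : Matrix n n ℂ) * J.down.1 * (((N s)⁻¹ : (Matrix n n ℂ)ˣ) : Matrix n n ℂ))
      rw [h]
      simp only [_root_.mul_inv_rev, inv_inv, Units.val_mul, mul_assoc, Units.inv_mul_cancel_left])))
    (fun J J' => by
      obtain ⟨μ, E₀, hE₀, F₀, hF₀, hEF₀, he⟩ := J.down.2.exists_conj hM hodd J'.down.2
      refine ⟨⟨μ, (Submodule.ne_bot_iff _).mpr ⟨E₀, hE₀, fun h => matrix_one_ne_zero hM (by
        rw [← hEF₀, h, zero_mul])⟩⟩, ULift.ext _ _ (Subtype.ext ?_)⟩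
      rw [he]
      exact conj_weight_eq hM hE₀ hEF₀ (hE _) (Units.mul_inv _) _)
    (Nat.Coprime.coprime_dvd_left ((Subgroup.card_subgroup_dvd_card _).trans
      (card_dual (Q := Q)).dvd) hcop)
    (Or.inl (Group.isSolvable_of_comm fun μ ν => mul_comm μ ν))
  refine ⟨x.down.1, x.down.2, fun s => congrArg (fun z : X => z.down.1) (hx s), fun J' hJ' hfix => ?_⟩
  obtain ⟨μ, E₀, hE₀, F₀, hF₀, hEF₀, he⟩ := x.down.2.exists_conj hM hodd hJ'
  suffices hμ : μ = 1 by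
    subst hμ
    rw [he, conj_weight_eq hM (one_mem_W (M := M)) (mul_one 1) hE₀ hEF₀, one_mul, mul_one]
  refine hdual μ fun s q => ?_
  -- compare the two conjugations after applying `s`
  let Eu : (Matrix n n ℂ)ˣ := ⟨E₀, F₀, hEF₀, mul_eq_one_comm.mp hEF₀⟩
  let E₁ : (Matrix n n ℂ)ˣ := N s * Eu * (N s)⁻¹
  have hE₁ : (E₁ : Matrix n n ℂ) ∈ W M (μ.comp (β s).symm.toMonoidHom) := (hN s).map_W hM hE₀
  have hF₁ : ((E₁⁻¹ : (Matrix n n ℂ)ˣ) : Matrix n n ℂ) ∈ W M (μ.comp (β s).symm.toMonoidHom)⁻¹ := by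
    have h := (hN s).map_W hM hF₀
    simp only [E₁, _root_.mul_inv_rev, inv_inv, Units.val_mul, ← mul_assoc]
    exact h
  have h1 : (E₁ : Matrix n n ℂ) * x.down.1 * ((E₁⁻¹ : (Matrix n n ℂ)ˣ) : Matrix n n ℂ) = E₀ * x.down.1 * F₀ := by
    conv_rhs => rw [← he, ← hfix s, he]
    conv_lhs => rw [← congrArg (fun z : X => z.down.1) (hx s)]
    show (E₁ : Matrix n n ℂ) * ((N s : Matrix n n ℂ) * x.down.1 * _) * _ = _
    simp only [E₁, _root_.mul_inv_rev, inv_inv, Units.val_mul, mul_assoc, Units.inv_mul_cancel_left]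
    rfl
  have hw := IsInv.eq_of_fixed hM hodd x.down.2 (mul_mem_W hF₀ hE₁)
    (F := ((E₁⁻¹ : (Matrix n n ℂ)ˣ) : Matrix n n ℂ) * E₀) (by
      rw [mul_assoc, ← mul_assoc E₀, hEF₀, one_mul, Units.inv_mul]) (by
      calc F₀ * (E₁ : Matrix n n ℂ) * x.down.1 * (((E₁⁻¹ : (Matrix n n ℂ)ˣ) : Matrix n n ℂ) * E₀)
          = F₀ * ((E₁ : Matrix n n ℂ) * x.down.1 * ((E₁⁻¹ : (Matrix n n ℂ)ˣ) : Matrix n n ℂ)) * E₀ := by
            simp only [mul_assoc]
        _ = (F₀ * E₀) * x.down.1 * (F₀ * E₀) := by rw [h1]; simp only [mul_assoc]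
        _ = _ := by rw [mul_eq_one_comm.mp hEF₀, one_mul, mul_one])
  have h4 := DFunLike.congr_fun hw (β s q)
  change (μ (β s q))⁻¹ * μ ((β s).symm (β s q)) = 1 at h4
  rw [MulEquiv.symm_apply_apply] at h4
  exact inv_mul_eq_one.mp h4

/-- An operator commuting with the coprime group up to scalars fixes the fixed inverter. -/
theorem conj_fixed_isInv {J : Matrix n n ℂ} (hJ : IsInv M J)
    (hfix : ∀ s, (N s : Matrix n n ℂ) * J * (((N s)⁻¹ : (Matrix n n ℂ)ˣ) : Matrix n n ℂ) = J)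
    (huniq : ∀ J', IsInv M J' →
        (∀ s, (N s : Matrix n n ℂ) * J' * (((N s)⁻¹ : (Matrix n n ℂ)ˣ) : Matrix n n ℂ) = J') → J' = J)
    {T : (Matrix n n ℂ)ˣ} {γ : MulAut Q} (hT : Norms M T γ)
    (hcomm : ∀ s, ∃ c : ℂ, (N s : Matrix n n ℂ) * T = c • ((T : Matrix n n ℂ) * N s)) :
    (T : Matrix n n ℂ) * J = J * T := by
  haveI := hM.nonempty
  have h := huniq _ (IsInv.normalize hM hT (hT.inv hM) hJ) fun s => by
    obtain ⟨c, hc⟩ := hcomm s
    have h1 := conj_smul_units (N' := N s * T) (N := T * N s) (c := c)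
      (by rw [Units.val_mul, Units.val_mul, hc]) J
    simp only [_root_.mul_inv_rev, Units.val_mul, mul_assoc] at h1 ⊢
    rw [h1]
    have h2 := hfix s
    simp only [mul_assoc] at h2
    conv_rhs => rw [← h2]
    simp only [mul_assoc]
  calc (T : Matrix n n ℂ) * J = (T : Matrix n n ℂ) * J *
        ((T⁻¹ : (Matrix n n ℂ)ˣ) : Matrix n n ℂ) * T := by
        rw [mul_assoc _ _ (T : Matrix n n ℂ), Units.inv_mul, mul_one]
    _ = J * T := by rw [h]

end Cfsg.Agent.Lib.OddCorr
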