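import Cfsg.Agent.Lib.OddCorr.Counting
import Cfsg.Agent.Lib.CharClifford.Gallagher

/-!
# The odd correspondence when the character of the lower layer is invariant
-/

set_option autoImplicit false
set_option linter.unusedSectionVars false

open scoped ComplexConjugate

namespace Cfsg.Agent.Lib.OddCorr

open Cfsg Cfsg.Agent.Lib.Char Cfsg.Agent.Lib.CharClifford Cfsg.Agent.Lib.Glauberman

universe u

/-- The squares of the multiplicities over an invariant character sum to the index. -/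
theorem sum_sq_over {X : Type u} [Group X] [Fintype X] (N : Subgroup X) [N.Normal] [Fintype N]
    {θ : N → ℂ} (hθ : IsIrrCharacter N θ) (hinv : ∀ g : X, conjChar N g θ = θ) :
    ∑ χ : IrrCharacter X, classInner (fun n : N => (χ : X → ℂ) n) θ ^ 2 = (N.index : ℂ) := by
  rw [← classInner_indFun_self_invariant N hθ hinv,
    classInner_eq_sum (isClassFunction_indFun N θ)]
  refine Finset.sum_congr rfl fun χ _ => ?_
  obtain ⟨m, hm⟩ := classInner_natCast (isCharacter_restrict (isCharacter_of_isIrr χ.2) N)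
    (isCharacter_of_isIrr hθ)
  rw [classInner_indFun N θ (isClassFunction_of_isIrr χ.2),
    show classInner θ (fun n : N => (χ : X → ℂ) n) = (m : ℂ) by rw [classInner_conj_symm, hm]; simp, hm]
  simp [pow_two]

/-- A character lying over an invariant character restricts to a multiple of it. -/
theorem restrict_invariant {X : Type u} [Group X] [Fintype X] (N : Subgroup X) [N.Normal] [Fintype N]
    {θ : N → ℂ} (hθ : IsIrrCharacter N θ) (hinv : ∀ g : X, conjChar N g θ = θ) {χ : X → ℂ}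
    (hχ : IsIrrCharacter X χ) (hover : classInner (fun n : N => χ n) θ ≠ 0) :
    (fun n : N => χ n) = classInner (fun n : N => χ n) θ • θ := by
  have horb : orbit N θ = {θ} := by
    ext ψ
    rw [mem_orbit, Finset.mem_singleton]
    exact ⟨fun ⟨g, hg⟩ => by rw [← hg, hinv], fun h => ⟨1, by rw [h, conjChar_one]⟩⟩
  have h := clifford N hχ hθ hover
  rwa [horb, Finset.sum_singleton] at h

variable {G : Type u} [Group G] [Fintype G] {S : Type u} [Group S] [Finite S] {a : S →* MulAut G}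
  {K L H : Subgroup G} (cfg : Cfg a K L H) [K.Normal] [L.Normal]

theorem Cfg.card_mul (cfg : Cfg a K L H) : Nat.card G * Nat.card L = Nat.card H * Nat.card K := by
  classical
  have := Fintype.ofFinite H
  have := Fintype.ofFinite K
  have hc := sum_mul_subgroup H K L cfg.hLH cfg.hLK (fun g hg hk => cfg.inter g hk hg) cfg.prod
    fun _ => (1 : ℂ)
  simp only [Finset.sum_const, Finset.card_univ, nsmul_eq_mul, mul_one, ← Nat.card_eq_fintype_card] at hc
  rw [mul_comm (Nat.card G)]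
  exact_mod_cast hc.symm

include cfg

theorem Cfg.inertial [Fintype L] [Fintype H] (φ : IrrCharacter L)
    (hφi : ∀ g : G, conjChar L g (φ : L → ℂ) = φ) (hφs : Inv (restrAut a L cfg.stabL) (φ : L → ℂ)) :
    (∀ χ : IrrCharacter G, Inv a (χ : G → ℂ) →
      classInner (fun l : L => (χ : G → ℂ) l) (φ : L → ℂ) ≠ 0 →
      ∃ η : IrrCharacter H, classInner (resLe cfg.hLH (η : H → ℂ)) (φ : L → ℂ) ≠ 0 ∧
        Inv (restrAut a H cfg.stabH) (η : H → ℂ) ∧
        ∀ ψ : IrrCharacter H, OddMult (fun h : H => (χ : G → ℂ) h) (ψ : H → ℂ) ↔ ψ = η) ∧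
    (∀ η : IrrCharacter H, classInner (resLe cfg.hLH (η : H → ℂ)) (φ : L → ℂ) ≠ 0 →
      Inv (restrAut a H cfg.stabH) (η : H → ℂ) →
      ∃ χ : IrrCharacter G, Inv a (χ : G → ℂ) ∧
        classInner (fun l : L => (χ : G → ℂ) l) (φ : L → ℂ) ≠ 0 ∧
        OddMult (fun h : H => (χ : G → ℂ) h) (η : H → ℂ)) ∧
    (∀ (χ χ' : IrrCharacter G) (η : IrrCharacter H), Inv a (χ : G → ℂ) → Inv a (χ' : G → ℂ) →
      classInner (fun l : L => (χ : G → ℂ) l) (φ : L → ℂ) ≠ 0 →
      classInner (fun l : L => (χ' : G → ℂ) l) (φ : L → ℂ) ≠ 0 →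
      OddMult (fun h : H => (χ : G → ℂ) h) (η : H → ℂ) →
      OddMult (fun h : H => (χ' : G → ℂ) h) (η : H → ℂ) → χ = χ') := by
  classical
  have := Fintype.ofFinite K
  have := Fintype.ofFinite (L.subgroupOf H)
  obtain ⟨θ, hover, hθs, hθi, huniq⟩ := cfg.exists_theta φ hφi hφs
  obtain ⟨D⟩ := cfg.exists_good φ hφi hφs θ hover hθs hθi
  have hint : ∀ g ∈ H, g ∈ K → g ∈ L := fun g hg hk => cfg.inter g hk hg
  let Ov : IrrCharacter G → Prop := fun χ => classInner (fun k : K => (χ : G → ℂ) k) (θ : K → ℂ) ≠ 0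
  have hOvφ : ∀ χ, Ov χ → classInner (fun l : L => (χ : G → ℂ) l) (φ : L → ℂ) ≠ 0 := fun χ hχ =>
    over_trans K.subtype (Subgroup.inclusion cfg.hLK) (isCharacter_of_isIrr χ.2) θ.2
      (isCharacter_of_isIrr φ.2) hχ hover
  have hφOv : ∀ χ : IrrCharacter G, Inv a (χ : G → ℂ) →
      classInner (fun l : L => (χ : G → ℂ) l) (φ : L → ℂ) ≠ 0 → Ov χ := by
    intro χ hχ hχφ
    have hcop : K.index.Coprime (Nat.card S) := cfg.copG.coprime_dvd_left K.index_dvd_card
    haveI := cfg.solv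
    obtain ⟨θ', hθ'1, hθ'2⟩ := exists_inv_below (N := K) cfg.stabK hχ hcop (Or.inl inferInstance)
    suffices hθ'φ : classInner (resLe cfg.hLK (θ' : K → ℂ)) (φ : L → ℂ) ≠ 0 by
      show classInner _ (θ : K → ℂ) ≠ 0
      rw [← huniq θ' hθ'2 hθ'φ]; exact hθ'1
    obtain ⟨ψ, hψ⟩ := exists_constituent (G := L)
      (isCharacter_comp (isCharacter_of_isIrr θ'.2) (Subgroup.inclusion cfg.hLK))
      (fun h => irr_degree_ne_zero θ'.2 (by simpa using congrFun h 1))
    have h1 : classInner (fun l : L => (χ : G → ℂ) l) (ψ : L → ℂ) ≠ 0 :=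
      over_trans K.subtype (Subgroup.inclusion cfg.hLK) (isCharacter_of_isIrr χ.2) θ'.2
        (isCharacter_of_isIrr ψ.2) hθ'1 hψ
    have h2 := restrict_invariant L φ.2 hφi χ.2 hχφ
    rw [h2, classInner_smul_left, classInner_irrCharacter] at h1
    split_ifs at h1 with he
    · rw [← he] at hψ; exact hψ
    · exact absurd (mul_zero _) h1
  have hlift : ∀ χ : IrrCharacter G, Ov χ → ∃ (e : ℕ) (lf : Lifted D (χ : G → ℂ)), lf.e = e ∧ e ≠ 0 ∧
      classInner (fun k : K => (χ : G → ℂ) k) (θ : K → ℂ) = (e : ℂ) := by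
    intro χ hχ
    obtain ⟨e, he⟩ := classInner_natCast (isCharacter_restrict (isCharacter_of_isIrr χ.2) K)
      (isCharacter_of_isIrr θ.2)
    obtain ⟨lf, hlf⟩ := exists_lifted D θ.2 χ.2 e
      (by rw [← he]; exact restrict_invariant K θ.2 hθi χ.2 hχ)
    exact ⟨e, lf, hlf, fun h0 => hχ (by rw [he, h0, Nat.cast_zero]), he⟩
  choose e lf hlfe he0 he using hlift
  let F : ∀ χ, Ov χ → IrrCharacter H := fun χ hχ =>
    ⟨(lf χ hχ).δ, (lf χ hχ).isIrr_δ cfg.hLH hint cfg.prod θ.2 φ.2 χ.2⟩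
  have hFmult : ∀ χ hχ, ∀ ψ : IrrCharacter H,
      OddMult (fun h : H => (χ.1 : G → ℂ) h) (ψ : H → ℂ) ↔ ψ = F χ hχ := by
    intro χ hχ ψ
    obtain ⟨c₁, c₂, -, hc₂, -, hsplit⟩ := (lf χ hχ).exists_split
    rw [oddMult_iff_of_eq (F χ hχ).2 hc₂ hsplit ψ, Subtype.ext_iff]
  have hFover : ∀ χ hχ,
      classInner (resLe cfg.hLH (F χ hχ : H → ℂ)) (φ : L → ℂ) = (e χ hχ : ℂ) := by
    intro χ hχ
    show classInner (resLe cfg.hLH (lf χ hχ).δ) _ = _
    rw [δ_res cfg.hLH, classInner_smul_left, classInner_irr_self φ.2, mul_one, hlfe]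
  have hFinj : ∀ χ χ' hχ hχ', F χ hχ = F χ' hχ' → χ = χ' := by
    intro χ χ' hχ hχ' heq
    by_contra hne
    have h := classInner_δ cfg.hLH hint cfg.prod θ.2 φ.2 (isCharacter_of_isIrr χ'.2) (lf χ hχ) (lf χ' hχ')
    rw [classInner_irrCharacter, if_neg hne] at h
    have heq' : (lf χ hχ).δ = (lf χ' hχ').δ := congrArg Subtype.val heq
    rw [heq', classInner_irr_self (F χ' hχ').2] at h
    exact one_ne_zero h
  have hOvmap : ∀ (s : S) χ, Ov χ → Ov (irrMap a s χ) := by
    intro s χ hχ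
    have h := classInner_irrMap cfg.stabK s χ θ
    rw [irrMap_res_of_inv cfg.stabK hθs s] at h
    show classInner _ _ ≠ 0
    rw [h]; exact hχ
  have hOdd : ∀ (s : S) (χ : IrrCharacter G) (η : IrrCharacter H),
      OddMult (fun h : H => (χ : G → ℂ) h) (η : H → ℂ) →
      OddMult (fun h : H => ((irrMap a s χ : IrrCharacter G) : G → ℂ) h)
        ((irrMap (restrAut a H cfg.stabH) s η : IrrCharacter H) : H → ℂ) := by
    rintro s χ η ⟨m, hm, hmo⟩
    refine ⟨m, ?_, hmo⟩
    rw [← hm]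
    exact classInner_equiv (restrAut a H cfg.stabH s⁻¹) (fun h : H => (χ : G → ℂ) h) (η : H → ℂ)
  refine ⟨fun χ hχ hχφ => ?_, fun η hηφ hη => ?_, fun χ χ' η hχ hχ' hφ hφ' h h' => ?_⟩
  · have hO := hφOv χ hχ hχφ
    refine ⟨F χ hO, ?_, ?_, hFmult χ hO⟩
    · rw [hFover]; exact Nat.cast_ne_zero.mpr (he0 χ hO)
    · refine (irrMap_fixed_iff _ _).mp fun s => ?_
      have h1 := hOdd s χ _ ((hFmult χ hO _).mpr rfl)
      rw [show irrMap a s χ = χ from (irrMap_fixed_iff a χ).mpr hχ s] at h1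
      exact (hFmult χ hO _).mp h1
  · obtain ⟨χ, hχ, hF⟩ : ∃ χ hχ, F χ hχ = η := by
      by_contra hno
      push Not at hno
      have hN : (L.subgroupOf H).Normal := (inferInstance : L.Normal).subgroupOf H
      let φ' := irrSub cfg.hLH φ
      have hinvH : ∀ g : H, conjChar (L.subgroupOf H) g (φ' : L.subgroupOf H → ℂ) = φ' := fun g =>
        funext fun n => (congrArg (φ : L → ℂ) (Subtype.ext rfl)).trans
          (congrFun (hφi (g : G)) (Subgroup.subgroupOfEquivOfLe cfg.hLH n))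
      have hsumH := sum_sq_over (L.subgroupOf H) φ'.2 hinvH
      have hsumG := sum_sq_over K θ.2 hθi
      choose f hf using fun ψ : IrrCharacter H =>
        classInner_natCast (isCharacter_comp (isCharacter_of_isIrr ψ.2) (Subgroup.inclusion cfg.hLH))
          (isCharacter_of_isIrr φ.2)
      have hf' : ∀ ψ : IrrCharacter H,
          classInner (fun n : L.subgroupOf H => (ψ : H → ℂ) n) (φ' : L.subgroupOf H → ℂ) = (f ψ : ℂ) :=
        fun ψ => (classInner_irrSub cfg.hLH ψ φ).symm.trans (hf ψ)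
      choose g hg using fun χ : IrrCharacter G =>
        classInner_natCast (isCharacter_restrict (isCharacter_of_isIrr χ.2) K) (isCharacter_of_isIrr θ.2)
      simp only [hf'] at hsumH
      simp only [hg] at hsumG
      have hidx : (L.subgroupOf H).index = K.index := by
        have h1 := cfg.card_mul
        rw [← K.index_mul_card, ← (L.subgroupOf H).index_mul_card,
          Nat.card_congr (Subgroup.subgroupOfEquivOfLe cfg.hLH).toEquiv] at h1
        have h2 : K.index * (Nat.card K * Nat.card L) = (L.subgroupOf H).index * (Nat.card K * Nat.card L) := by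
          linarith
        exact (Nat.eq_of_mul_eq_mul_right (Nat.mul_pos Nat.card_pos Nat.card_pos) h2).symm
      have hH' : ∑ ψ, f ψ ^ 2 = K.index := by rw [← hidx]; exact_mod_cast hsumH
      have hG' : ∑ χ, g χ ^ 2 = K.index := by exact_mod_cast hsumG
      let s : Finset (IrrCharacter G) := Finset.univ.filter Ov
      let im : Finset (IrrCharacter H) := s.attach.image fun χ => F χ.1 (Finset.mem_filter.mp χ.2).2
      have hnot : η ∉ im := by
        intro hm
        obtain ⟨χ, -, hχ⟩ := Finset.mem_image.mp hm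
        exact hno χ.1 _ hχ
      have hGs : ∑ χ ∈ s, g χ ^ 2 = K.index := by
        rw [← hG', Finset.sum_filter_of_ne]
        intro χ _ hne h0
        refine hne ?_
        rw [hg, Nat.cast_eq_zero] at h0
        rw [h0]; rfl
      have him : ∑ ψ ∈ im, f ψ ^ 2 = K.index := by
        rw [Finset.sum_image fun x _ y _ h => Subtype.ext (hFinj _ _ _ _ h), ← hGs, ← Finset.sum_attach s]
        refine Finset.sum_congr rfl fun χ _ => ?_
        have hO := (Finset.mem_filter.mp χ.2).2
        have h1 := (hFover χ.1 hO).symm.trans (hf _)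
        rw [← he χ.1 hO, hg] at h1
        have h2 : g χ.1 = f (F χ.1 hO) := by exact_mod_cast h1
        rw [h2]
      have hle := Finset.sum_le_sum_of_subset (f := fun ψ => f ψ ^ 2) (Finset.subset_univ (insert η im))
      rw [Finset.sum_insert hnot, him, hH'] at hle
      have h0 : f η ≠ 0 := fun h0 => hηφ (by
        rw [show resLe cfg.hLH (η : H → ℂ) = fun l => (η : H → ℂ) (Subgroup.inclusion cfg.hLH l) from rfl]
        exact (hf η).trans (by rw [h0, Nat.cast_zero]))
      have : 0 < f η ^ 2 := pow_pos (Nat.pos_of_ne_zero h0) 2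
      omega
    refine ⟨χ, (irrMap_fixed_iff a χ).mp fun s => ?_, hOvφ χ hχ, (hFmult χ hχ η).mpr hF.symm⟩
    have h1 := hOdd s χ η ((hFmult χ hχ η).mpr hF.symm)
    rw [irrMap_fixed_iff (restrAut a H cfg.stabH) η |>.mpr hη s] at h1
    have h2 := (hFmult _ (hOvmap s χ hχ) η).mp h1
    exact hFinj _ _ _ _ (h2.symm.trans hF.symm)
  · have h1 := (hFmult χ (hφOv χ hχ hφ) η).mp h
    have h2 := (hFmult χ' (hφOv χ' hχ' hφ') η).mp h'
    exact hFinj _ _ _ _ (h1.symm.trans h2)

end Cfsg.Agent.Lib.OddCorr
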