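import Cfsg.Agent.Lib.OddCorr.Weights

/-!
# Inverters
-/

set_option autoImplicit false
set_option linter.unusedSectionVars false

namespace Cfsg.Agent.Lib.OddCorr

open Matrix

universe u

variable {Q : Type u} [CommGroup Q] [Fintype Q] {n : Type} [Fintype n] [DecidableEq n]
  {M : Q → (Matrix n n ℂ)ˣ}

/-- An involutive matrix of trace one mapping every weight space to the opposite one. -/
structure IsInv (M : Q → (Matrix n n ℂ)ˣ) (J : Matrix n n ℂ) : Prop where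
  sq : J * J = 1
  tr : J.trace = 1
  map : ∀ μ, ∀ Y ∈ W M μ, J * Y * J ∈ W M μ⁻¹

/-- The unit given by an inverter. -/
def IsInv.unit {J : Matrix n n ℂ} (h : IsInv M J) : (Matrix n n ℂ)ˣ := ⟨J, J, h.sq, h.sq⟩

theorem eq_one_of_sq (hodd : Odd (Nat.card Q)) {μ : Q →* ℂˣ} (h : ∀ q, μ q = (μ q)⁻¹) : μ = 1 := by
  refine MonoidHom.ext fun q => ?_
  have h2 : μ q ^ 2 = 1 := by
    rw [pow_two]; nth_rewrite 2 [h q]; exact mul_inv_cancel _
  have h3 : μ q ^ Nat.card Q = 1 := by rw [← map_pow, pow_card_eq_one', map_one]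
  obtain ⟨k, hk⟩ := hodd
  rw [hk, pow_succ, pow_mul, h2, one_pow, one_mul] at h3
  rw [h3, MonoidHom.one_apply]

theorem trace_mulLeftRight (A B : Matrix n n ℂ) :
    LinearMap.trace ℂ (Matrix n n ℂ) ((LinearMap.mulLeft ℂ A).comp (LinearMap.mulRight ℂ B)) =
      A.trace * B.trace := by
  rw [LinearMap.trace_eq_matrix_trace ℂ (Matrix.stdBasis ℂ n n), Matrix.trace, Matrix.trace,
    Matrix.trace, Finset.sum_mul_sum, Fintype.sum_prod_type]
  refine Finset.sum_congr rfl fun i _ => Finset.sum_congr rfl fun j _ => ?_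
  rw [Matrix.diag_apply, LinearMap.toMatrix_apply, Matrix.stdBasis_eq_single, LinearMap.comp_apply,
    LinearMap.mulLeft_apply, LinearMap.mulRight_apply]
  show (A * (Matrix.single i j (1 : ℂ) * B)) i j = A i i * B j j
  rw [Matrix.mul_apply, Finset.sum_eq_single i]
  · rw [Matrix.single_mul_apply_same, one_mul]
  · intro b _ hb
    rw [Matrix.single_mul_apply_of_ne _ _ _ _ _ hb, mul_zero]
  · exact fun h => absurd (Finset.mem_univ _) h

variable (hM : ProjIrr M)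

include hM

theorem P_of_mem {μ : Q →* ℂˣ} {Y : Matrix n n ℂ} (hY : Y ∈ W M μ) : P M μ Y = Y := by
  classical
  have := Fintype.ofFinite (Q →* ℂˣ)
  conv_rhs => rw [← sum_P hM Y]
  rw [Finset.sum_eq_single μ (fun ν _ hν => P_eq_zero (Ne.symm hν) hY)
    (fun h => absurd (Finset.mem_univ _) h)]

/-- The conjugation map of a normaliser moving all nontrivial weights has trace one. -/
theorem trace_normalizer (N : (Matrix n n ℂ)ˣ) (g : (Q →* ℂˣ) → (Q →* ℂˣ))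
    (hN : ∀ μ, ∀ Y ∈ W M μ, (N : Matrix n n ℂ) * Y * ((N⁻¹ : (Matrix n n ℂ)ˣ) : Matrix n n ℂ) ∈ W M (g μ))
    (hg : ∀ μ, g μ = μ → μ = 1) :
    (N : Matrix n n ℂ).trace * ((N⁻¹ : (Matrix n n ℂ)ˣ) : Matrix n n ℂ).trace = 1 := by
  classical
  have := Fintype.ofFinite (Q →* ℂˣ)
  rw [← trace_mulLeftRight]
  set Φ : Matrix n n ℂ →ₗ[ℂ] Matrix n n ℂ := (LinearMap.mulLeft ℂ (N : Matrix n n ℂ)).comp
    (LinearMap.mulRight ℂ ((N⁻¹ : (Matrix n n ℂ)ˣ) : Matrix n n ℂ))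
  have hΦ : ∀ Y, Φ Y = (N : Matrix n n ℂ) * Y * ((N⁻¹ : (Matrix n n ℂ)ˣ) : Matrix n n ℂ) := fun Y =>
    (mul_assoc _ _ _).symm
  have hn : (Fintype.card n : ℂ) ≠ 0 :=
    Nat.cast_ne_zero.mpr (Fintype.card_pos_iff.mpr hM.nonempty).ne'
  have hsum : Φ = ∑ μ : Q →* ℂˣ, Φ.comp (P M μ) := LinearMap.ext fun Y => by
    rw [LinearMap.sum_apply]
    simp only [LinearMap.comp_apply]
    rw [← map_sum, sum_P hM]
  rw [hsum, map_sum, Finset.sum_eq_single (1 : Q →* ℂˣ)]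
  · have h1 : Φ.comp (P M 1) =
        ((Fintype.card n : ℂ)⁻¹ • Matrix.traceLinearMap n ℂ ℂ).smulRight (1 : Matrix n n ℂ) := by
      refine LinearMap.ext fun Y => ?_
      obtain ⟨c, hc⟩ := eq_smul_one hM (P_mem hM 1 Y)
      have ht : (P M 1 Y).trace = Y.trace := by
        rw [P_apply, Matrix.trace_smul, Matrix.trace_sum]
        simp only [Matrix.trace_smul, Matrix.trace_units_conj, MonoidHom.one_apply, Units.val_one,
          one_smul, Finset.sum_const, Finset.card_univ, ← Nat.card_eq_fintype_card, nsmul_eq_mul,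
          smul_eq_mul]
        rw [← mul_assoc, inv_mul_cancel₀ (Nat.cast_ne_zero.mpr Nat.card_pos.ne'), one_mul]
      rw [LinearMap.comp_apply, hΦ, hc, mul_smul_comm, mul_one, smul_mul_assoc, Units.mul_inv,
        LinearMap.smulRight_apply, LinearMap.smul_apply, Matrix.traceLinearMap_apply, smul_eq_mul]
      rw [hc, Matrix.trace_smul, Matrix.trace_one, smul_eq_mul] at ht
      rw [← ht, mul_comm c, inv_mul_cancel_left₀ hn]
    rw [h1, LinearMap.trace_smulRight, LinearMap.smul_apply, Matrix.traceLinearMap_apply,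
      Matrix.trace_one, smul_eq_mul, inv_mul_cancel₀ hn]
  · intro μ _ hμ
    have h1 : Φ.comp (P M μ) = (P M (g μ)).comp (Φ.comp (P M μ)) := LinearMap.ext fun Y => by
      simp only [LinearMap.comp_apply]
      rw [P_of_mem hM (μ := g μ)]
      rw [hΦ]
      exact hN μ _ (P_mem hM μ Y)
    rw [h1, LinearMap.trace_comp_comm', LinearMap.comp_assoc,
      show (P M μ).comp (P M (g μ)) = 0 from LinearMap.ext fun Y => by
        rw [LinearMap.comp_apply, P_eq_zero (fun h => hμ (hg μ h)) (P_mem hM (g μ) Y),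
          LinearMap.zero_apply],
      LinearMap.comp_zero, map_zero]
  · exact fun h => absurd (Finset.mem_univ _) h

omit hM in
theorem exists_common_eigvec {V : Type} [AddCommGroup V] [Module ℂ V] [FiniteDimensional ℂ V]
    [Nontrivial V] {ι : Type u} (T : ι → Module.End ℂ V) (hT : ∀ i j v, T i (T j v) = T j (T i v)) :
    ∃ v : V, v ≠ 0 ∧ ∀ i, ∃ s : ℂ, T i v = s • v := by
  suffices h : ∀ (m : ℕ) (U : Submodule ℂ V), Module.finrank ℂ U ≤ m → U ≠ ⊥ →
      (∀ i, ∀ v ∈ U, T i v ∈ U) → ∃ v : V, v ≠ 0 ∧ ∀ i, ∃ s : ℂ, T i v = s • v from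
    h _ ⊤ le_rfl top_ne_bot fun _ _ _ => Submodule.mem_top
  intro m
  induction m with
  | zero => exact fun U hU h0 => absurd (Submodule.finrank_eq_zero.mp (Nat.le_zero.mp hU)) h0
  | succ m ih =>
    intro U hU h0 hinv
    by_cases hall : ∀ i, ∃ s : ℂ, ∀ v ∈ U, T i v = s • v
    · obtain ⟨v, hv, hv0⟩ := Submodule.exists_mem_ne_zero_of_ne_bot h0
      exact ⟨v, hv0, fun i => (hall i).imp fun s hs => hs v hv⟩
    · push Not at hall
      obtain ⟨i, hi⟩ := hall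
      haveI : Nontrivial U := Submodule.nontrivial_iff_ne_bot.mpr h0
      obtain ⟨s, hs⟩ := Module.End.exists_eigenvalue ((T i).restrict (hinv i))
      obtain ⟨w, hw, hw0⟩ := hs.exists_hasEigenvector
      let U' : Submodule ℂ V := U ⊓ Module.End.eigenspace (T i) s
      have hmem : (w : V) ∈ U' := ⟨w.2, Module.End.mem_eigenspace_iff.mpr
        (congrArg Subtype.val (Module.End.mem_eigenspace_iff.mp hw))⟩
      refine ih U' ?_ ?_ ?_
      · have hlt : U' < U := by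
          refine lt_of_le_of_ne inf_le_left fun he => ?_
          obtain ⟨v, hv, hne⟩ := hi s
          exact hne (Module.End.mem_eigenspace_iff.mp (inf_eq_left.mp he hv))
        have := Submodule.finrank_lt_finrank_of_lt hlt
        omega
      · exact fun hb => hw0 (Subtype.ext (by rw [hb] at hmem; exact (Submodule.mem_bot ℂ).mp hmem))
      · rintro j v ⟨hv, hv'⟩
        refine ⟨hinv j v hv, Module.End.mem_eigenspace_iff.mpr ?_⟩
        rw [hT, Module.End.mem_eigenspace_iff.mp hv', map_smul]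

theorem exists_isInv (hodd : Odd (Nat.card Q)) : ∃ J, IsInv M J := by
  classical
  have := Fintype.ofFinite (Q →* ℂˣ)
  haveI := hM.nonempty
  let ι := { p : (Q →* ℂˣ) × Matrix n n ℂ // p.2 ∈ W M p.1 }
  let T : ι → Module.End ℂ (Matrix n n ℂ) := fun p =>
    (LinearMap.mulLeft ℂ p.1.2).comp (LinearMap.mulRight ℂ p.1.2)
  have hT : ∀ i j v, T i (T j v) = T j (T i v) := by
    rintro ⟨⟨μ, Y⟩, hY⟩ ⟨⟨ν, Z⟩, hZ⟩ v
    show Y * (Z * (v * Z) * Y) = Z * (Y * (v * Y) * Z)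
    rcases eq_or_ne Y 0 with rfl | hY0
    · simp
    rcases eq_or_ne Z 0 with rfl | hZ0
    · simp
    obtain ⟨c, -, hc⟩ := comm_scalar hM hY hY0 hZ hZ0
    calc Y * (Z * (v * Z) * Y) = (Y * Z) * v * (Z * Y) := by simp only [mul_assoc]
      _ = c • ((Z * Y) * v * (Z * Y)) := by rw [hc, smul_mul_assoc, smul_mul_assoc]
      _ = (Z * Y) * v * (Y * Z) := by rw [hc, mul_smul_comm]
      _ = Z * (Y * (v * Y) * Z) := by simp only [mul_assoc]
  obtain ⟨g, hg0, hg⟩ := exists_common_eigvec T hT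
  have key : ∀ μ, ∀ Y ∈ W M μ, Y ≠ 0 → ∀ Z, Z * Y = 1 → Y * Z = 1 →
      ∃ s : ℂ, s ≠ 0 ∧ Y * g = s • (g * Z) := by
    intro μ Y hY hY0 Z hZY hYZ
    obtain ⟨s, hs⟩ := hg ⟨(μ, Y), hY⟩
    have hs' : Y * (g * Y) = s • g := hs
    refine ⟨s, ?_, ?_⟩
    · rintro rfl
      rw [zero_smul] at hs'
      refine hg0 ?_
      calc g = (Z * Y) * g * (Y * Z) := by rw [hZY, hYZ, one_mul, mul_one]
        _ = Z * (Y * (g * Y)) * Z := by simp only [mul_assoc]
        _ = 0 := by rw [hs', mul_zero, zero_mul]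
    · calc Y * g = (Y * (g * Y)) * Z := by simp only [mul_assoc, hYZ, mul_one]
        _ = s • (g * Z) := by rw [hs', smul_mul_assoc]
  have hgu : IsUnit g := by
    rw [← Matrix.mulVec_injective_iff_isUnit]
    intro v w hvw
    by_contra hne
    have hd : g *ᵥ (v - w) = 0 := by rw [Matrix.mulVec_sub]; exact sub_eq_zero.mpr hvw
    have hX : ∀ X : Matrix n n ℂ, g *ᵥ (X *ᵥ (v - w)) = 0 := by
      intro X
      rw [← sum_P hM X, Matrix.sum_mulVec, Matrix.mulVec_sum]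
      refine Finset.sum_eq_zero fun μ _ => ?_
      rcases eq_or_ne (P M μ X) 0 with h | h
      · rw [h, Matrix.zero_mulVec, Matrix.mulVec_zero]
      obtain ⟨Y, hY, hXY, hYX⟩ := exists_inv hM (P_mem hM μ X) h
      obtain ⟨s, hs0, hs⟩ := key μ⁻¹ Y hY (fun h0 => matrix_one_ne_zero hM (by
        rw [← hXY, h0, mul_zero])) (P M μ X) hXY hYX
      have : g * P M μ X = s⁻¹ • (Y * g) := by
        rw [hs, smul_smul, inv_mul_cancel₀ hs0, one_smul]
      rw [Matrix.mulVec_mulVec, this, Matrix.smul_mulVec, ← Matrix.mulVec_mulVec, hd,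
        Matrix.mulVec_zero, smul_zero]
    obtain ⟨i, hi⟩ : ∃ i, (v - w) i ≠ 0 := Function.ne_iff.mp (sub_ne_zero.mpr hne)
    refine hg0 (Matrix.ext fun a b => ?_)
    have h := congrFun (hX (Matrix.single b i ((v - w) i)⁻¹)) a
    rw [Matrix.single_mulVec_eq, inv_mul_cancel₀ hi, one_smul, Matrix.mulVec_single_one] at h
    simpa using h
  obtain ⟨G, rfl⟩ := hgu
  have hmap : ∀ μ, ∀ Z ∈ W M μ,
      (G : Matrix n n ℂ) * Z * ((G⁻¹ : (Matrix n n ℂ)ˣ) : Matrix n n ℂ) ∈ W M μ⁻¹ := by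
    intro μ Z hZ
    rcases eq_or_ne Z 0 with rfl | hZ0
    · rw [mul_zero, zero_mul]; exact Submodule.zero_mem _
    obtain ⟨Y, hY, hZY, hYZ⟩ := exists_inv hM hZ hZ0
    obtain ⟨s, hs0, hs⟩ := key μ⁻¹ Y hY (fun h0 => matrix_one_ne_zero hM (by
        rw [← hZY, h0, mul_zero])) Z hZY hYZ
    rw [show (G : Matrix n n ℂ) * Z = s⁻¹ • (Y * G) by
      rw [hs, smul_smul, inv_mul_cancel₀ hs0, one_smul], smul_mul_assoc, mul_assoc, Units.mul_inv,
      mul_one]
    exact Submodule.smul_mem _ _ hY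
  obtain ⟨ν, hν⟩ := mem_W_of_stabilizes hM (G * G) fun μ Y hY => by
    have h2 := hmap μ⁻¹ _ (hmap μ Y hY)
    rw [show (μ⁻¹)⁻¹ = μ from MonoidHom.ext fun a => inv_inv (μ a)] at h2
    simpa only [_root_.mul_inv_rev, Units.val_mul, mul_assoc] using h2
  have hν1 : ν = 1 := by
    have h2 := hmap ν _ hν
    have h3 : (G : Matrix n n ℂ) * ((G * G : (Matrix n n ℂ)ˣ) : Matrix n n ℂ) *
        ((G⁻¹ : (Matrix n n ℂ)ˣ) : Matrix n n ℂ) = ((G * G : (Matrix n n ℂ)ˣ) : Matrix n n ℂ) := by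
      simp only [Units.val_mul, mul_assoc, Units.mul_inv, mul_one]
    rw [h3] at h2
    exact eq_one_of_sq hodd fun q => DFunLike.congr_fun (weight_eq hM hν h2 (G * G).ne_zero) q
  subst hν1
  obtain ⟨c, hc⟩ := eq_smul_one hM hν
  rw [Units.val_mul] at hc
  have hc0 : c ≠ 0 := by rintro rfl; rw [zero_smul, ← Units.val_mul] at hc; exact (G * G).ne_zero hc
  obtain ⟨r, hr⟩ := IsAlgClosed.exists_eq_mul_self c⁻¹
  have hr0 : r ≠ 0 := by rintro rfl; rw [mul_zero] at hr; exact inv_ne_zero hc0 hr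
  set J : Matrix n n ℂ := r • (G : Matrix n n ℂ) with hJ
  have hJ2 : J * J = 1 := by
    rw [hJ, smul_mul_assoc, mul_smul_comm, smul_smul, hc, smul_smul, ← hr, inv_mul_cancel₀ hc0, one_smul]
  have hJinv : ((G⁻¹ : (Matrix n n ℂ)ˣ) : Matrix n n ℂ) = r • J := by
    refine Units.inv_eq_of_mul_eq_one_right ?_
    rw [mul_smul_comm, ← smul_mul_assoc, ← hJ, hJ2]
  have hJmap : ∀ μ, ∀ Y ∈ W M μ, J * Y * J ∈ W M μ⁻¹ := by
    intro μ Y hY
    have h2 := hmap μ Y hY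
    rw [hJinv, mul_smul_comm, ← smul_mul_assoc, ← smul_mul_assoc, ← hJ] at h2
    exact h2
  have ht := trace_normalizer hM ⟨J, J, hJ2, hJ2⟩ (fun μ => μ⁻¹) hJmap
    fun μ hμ => eq_one_of_sq hodd fun q => (DFunLike.congr_fun hμ q).symm
  change J.trace * J.trace = 1 at ht
  rcases mul_self_eq_one_iff.mp ht with h | h
  · exact ⟨J, hJ2, h, hJmap⟩
  · refine ⟨-J, by rw [neg_mul_neg, hJ2], by rw [Matrix.trace_neg, h, neg_neg], fun μ Y hY => ?_⟩
    rw [neg_mul, neg_mul_neg]; exact hJmap μ Y hY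

theorem IsInv.conj {μ : Q →* ℂˣ} {E F J : Matrix n n ℂ} (h : IsInv M J) (hE : E ∈ W M μ)
    (hF : F ∈ W M μ⁻¹) (hEF : E * F = 1) : IsInv M (E * J * F) := by
  have hFE : F * E = 1 := mul_eq_one_comm.mp hEF
  refine ⟨?_, ?_, fun ν Y hY => ?_⟩
  · calc E * J * F * (E * J * F) = E * J * (F * E) * (J * F) := by simp only [mul_assoc]
      _ = E * (J * J) * F := by rw [hFE, mul_one]; simp only [mul_assoc]
      _ = 1 := by rw [h.sq, mul_one, hEF]
  · rw [Matrix.trace_mul_comm, ← mul_assoc, hFE, one_mul, h.tr]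
  · have h1 : F * Y * E ∈ W M ν := by
      have := mul_mem_W (mul_mem_W hF hY) hE
      rwa [show μ⁻¹ * ν * μ = ν from MonoidHom.ext fun a => by
        simp [mul_comm (μ a)⁻¹ (ν a)]] at this
    have h2 := mul_mem_W (mul_mem_W hE (h.map ν _ h1)) hF
    rw [show μ * ν⁻¹ * μ⁻¹ = ν⁻¹ from MonoidHom.ext fun a => by
      simp [mul_comm (μ a)]] at h2
    simpa only [mul_assoc] using h2

theorem IsInv.eq_of_fixed (hodd : Odd (Nat.card Q)) {μ : Q →* ℂˣ} {E F J : Matrix n n ℂ}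
    (h : IsInv M J) (hE : E ∈ W M μ) (hFE : F * E = 1) (hfix : E * J * F = J) : μ = 1 := by
  have h1 : E * J = J * E := by
    have := congrArg (· * E) hfix
    simpa only [mul_assoc, hFE, mul_one] using this
  have h2 := h.map μ E hE
  rw [mul_assoc, h1, ← mul_assoc, h.sq, one_mul] at h2
  exact eq_one_of_sq hodd fun q => DFunLike.congr_fun (weight_eq hM hE h2 (fun h0 =>
    matrix_one_ne_zero hM (by rw [← hFE, h0, mul_zero]))) q

theorem IsInv.exists_conj (hodd : Odd (Nat.card Q)) {J J' : Matrix n n ℂ} (h : IsInv M J)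
    (h' : IsInv M J') : ∃ μ, ∃ E ∈ W M μ, ∃ F ∈ W M μ⁻¹, E * F = 1 ∧ J' = E * J * F := by
  let X : (Matrix n n ℂ)ˣ := h'.unit * h.unit
  obtain ⟨ν, hν⟩ := mem_W_of_stabilizes hM X fun μ Y hY => by
    have h2 := h'.map _ _ (h.map μ Y hY)
    rw [show (μ⁻¹)⁻¹ = μ from MonoidHom.ext fun a => inv_inv (μ a)] at h2
    show (J' * J) * Y * (J * J') ∈ W M μ
    simpa only [mul_assoc] using h2
  obtain ⟨k, hk⟩ := hodd
  have hJX : J * (X : Matrix n n ℂ) * J = ((X⁻¹ : (Matrix n n ℂ)ˣ) : Matrix n n ℂ) := by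
    show J * (J' * J) * J = J * J'
    rw [mul_assoc, mul_assoc J', h.sq, mul_one]
  have hX' : ((X⁻¹ : (Matrix n n ℂ)ˣ) : Matrix n n ℂ) ∈ W M ν⁻¹ := hJX ▸ h.map ν _ hν
  have hconjpow : ∀ i : ℕ, J * ((X⁻¹ : (Matrix n n ℂ)ˣ) : Matrix n n ℂ) ^ i * J =
      (X : Matrix n n ℂ) ^ i := by
    intro i
    induction i with
    | zero => rw [pow_zero, pow_zero, mul_one, h.sq]
    | succ i ih =>
      have hX2 : J * ((X⁻¹ : (Matrix n n ℂ)ˣ) : Matrix n n ℂ) * J = X := by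
        show J * (J * J') * J = J' * J
        rw [← mul_assoc J, h.sq, one_mul]
      calc J * ((X⁻¹ : (Matrix n n ℂ)ˣ) : Matrix n n ℂ) ^ (i + 1) * J
          = (J * ((X⁻¹ : (Matrix n n ℂ)ˣ) : Matrix n n ℂ) ^ i * J) *
            (J * ((X⁻¹ : (Matrix n n ℂ)ˣ) : Matrix n n ℂ) * J) := by
            rw [pow_succ]; simp only [mul_assoc]
            rw [← mul_assoc J J, h.sq, one_mul]
        _ = _ := by rw [ih, hX2, ← pow_succ]
  have hEF : (X : Matrix n n ℂ) ^ (k + 1) * ((X⁻¹ : (Matrix n n ℂ)ˣ) : Matrix n n ℂ) ^ (k + 1) = 1 := by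
    rw [← Units.val_pow_eq_pow_val, ← Units.val_pow_eq_pow_val, ← Units.val_mul, inv_pow,
      mul_inv_cancel, Units.val_one]
  have hF : ((X⁻¹ : (Matrix n n ℂ)ˣ) : Matrix n n ℂ) ^ (k + 1) ∈ W M (ν ^ (k + 1))⁻¹ := by
    have := pow_mem_W hX' (k + 1)
    rwa [show ν⁻¹ ^ (k + 1) = (ν ^ (k + 1))⁻¹ from MonoidHom.ext fun a => by simp] at this
  refine ⟨ν ^ (k + 1), _, pow_mem_W hν (k + 1), _, hF, hEF, ?_⟩
  have h3 : (X : Matrix n n ℂ) ^ (k + 1) * J * ((X⁻¹ : (Matrix n n ℂ)ˣ) : Matrix n n ℂ) ^ (k + 1) =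
      (X : Matrix n n ℂ) ^ (2 * k + 1) * J' := by
    calc _ = (X : Matrix n n ℂ) ^ (k + 1) *
          (J * ((X⁻¹ : (Matrix n n ℂ)ˣ) : Matrix n n ℂ) ^ (k + 1) * J) * J := by
            simp only [mul_assoc, h.sq, mul_one]
      _ = (X : Matrix n n ℂ) ^ (2 * k + 1) * ((X : Matrix n n ℂ) * J) := by
        rw [hconjpow, ← pow_add, ← mul_assoc _ (X : Matrix n n ℂ) J, ← pow_succ]
        congr 2; omega
      _ = _ := by
        congr 1
        show J' * J * J = J'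
        rw [mul_assoc, h.sq, mul_one]
  obtain ⟨c, hc⟩ := eq_smul_one hM (Y := (X : Matrix n n ℂ) ^ (2 * k + 1)) (by
    have := pow_mem_W hν (2 * k + 1)
    rwa [show ν ^ (2 * k + 1) = 1 from MonoidHom.ext fun a => by
      rw [MonoidHom.one_apply, ← hk, MonoidHom.pow_apply, ← map_pow, pow_card_eq_one', map_one]]
      at this)
  rw [hc, smul_mul_assoc, one_mul] at h3
  have ht := congrArg Matrix.trace h3
  rw [((h.conj hM (pow_mem_W hν (k + 1)) hF hEF)).tr, Matrix.trace_smul, h'.tr, smul_eq_mul,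
    mul_one] at ht
  rw [h3, ← ht, one_smul]

/-- A matrix normalising the representation along an automorphism. -/
def Norms (M : Q → (Matrix n n ℂ)ˣ) (N : (Matrix n n ℂ)ˣ) (β : MulAut Q) : Prop :=
  ∀ q, ∃ c : ℂ, (N : Matrix n n ℂ) * M q = c • ((M (β q) : Matrix n n ℂ) * N)

theorem Norms.map_W {N : (Matrix n n ℂ)ˣ} {β : MulAut Q} (hN : Norms M N β) {μ : Q →* ℂˣ}
    {Y : Matrix n n ℂ} (hY : Y ∈ W M μ) :
    (N : Matrix n n ℂ) * Y * ((N⁻¹ : (Matrix n n ℂ)ˣ) : Matrix n n ℂ) ∈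
      W M (μ.comp β.symm.toMonoidHom) := by
  haveI := hM.nonempty
  intro a
  obtain ⟨c, hc⟩ := hN (β.symm a)
  rw [MulEquiv.apply_symm_apply] at hc
  have hc0 : c ≠ 0 := by
    rintro rfl; rw [zero_smul, ← Units.val_mul] at hc; exact (N * M (β.symm a)).ne_zero hc
  have hMN : (M a : Matrix n n ℂ) * N = c⁻¹ • ((N : Matrix n n ℂ) * M (β.symm a)) := by
    rw [hc, smul_smul, inv_mul_cancel₀ hc0, one_smul]
  have hNM : (M (β.symm a) : Matrix n n ℂ) * ((N⁻¹ : (Matrix n n ℂ)ˣ) : Matrix n n ℂ) =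
      c • (((N⁻¹ : (Matrix n n ℂ)ˣ) : Matrix n n ℂ) * M a) := by
    have := congrArg (fun X => ((N⁻¹ : (Matrix n n ℂ)ˣ) : Matrix n n ℂ) * X *
      ((N⁻¹ : (Matrix n n ℂ)ˣ) : Matrix n n ℂ)) hc
    simp only [mul_smul_comm, smul_mul_assoc] at this
    simp only [mul_assoc, Units.inv_mul_cancel_left, Units.mul_inv, mul_one] at this
    exact this
  show (M a : Matrix n n ℂ) * _ = (μ (β.symm a) : ℂ) • _
  rw [← mul_assoc, ← mul_assoc, hMN, smul_mul_assoc, smul_mul_assoc, mul_assoc (N : Matrix n n ℂ),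
    hY (β.symm a), mul_smul_comm, smul_mul_assoc, mul_assoc, mul_assoc Y, hNM, mul_smul_comm,
    mul_smul_comm, smul_smul, smul_smul, mul_assoc, mul_assoc, mul_assoc,
    show c⁻¹ * ((μ (β.symm a) : ℂ) * c) = (μ (β.symm a) : ℂ) by field_simp]

theorem IsInv.normalize {N : (Matrix n n ℂ)ˣ} {β : MulAut Q} (hN : Norms M N β)
    (hN' : Norms M N⁻¹ β⁻¹) {J : Matrix n n ℂ} (h : IsInv M J) :
    IsInv M ((N : Matrix n n ℂ) * J * ((N⁻¹ : (Matrix n n ℂ)ˣ) : Matrix n n ℂ)) := by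
  refine ⟨?_, ?_, fun μ Y hY => ?_⟩
  · simp only [mul_assoc, Units.inv_mul_cancel_left]
    rw [← mul_assoc J, h.sq, one_mul, Units.mul_inv]
  · rw [Matrix.trace_units_conj, h.tr]
  · have h1 := hN'.map_W hM hY
    rw [inv_inv] at h1
    have h2 := hN.map_W hM (h.map _ _ h1)
    rw [show (μ.comp (β⁻¹).symm.toMonoidHom)⁻¹.comp β.symm.toMonoidHom = μ⁻¹ from
      MonoidHom.ext fun a => by
        show (μ (β (β.symm a)))⁻¹ = (μ a)⁻¹
        rw [MulEquiv.apply_symm_apply]] at h2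
    simpa only [mul_assoc] using h2

end Cfsg.Agent.Lib.OddCorr
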