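import Cfsg.Agent.Lib.Glauberman.Lemma
import Mathlib

/-!
# Weights of a projective irreducible representation of an abelian group of odd order

For an irreducible projective representation `M` of a finite abelian group `Q`, conjugation splits
the matrix algebra into weight lines; an inverter is an involutive matrix of trace one mapping each
weight line to the opposite one.
-/

set_option autoImplicit false
set_option linter.unusedSectionVars false

namespace Cfsg.Agent.Lib.OddCorr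

open Matrix

universe u

variable {Q : Type u} [CommGroup Q] [Finite Q] {n : Type} [Fintype n] [DecidableEq n]

/-- An irreducible projective representation of an abelian group. -/
structure ProjIrr (M : Q → (Matrix n n ℂ)ˣ) : Prop where
  mul : ∀ a b, ∃ c : ℂ, (M a : Matrix n n ℂ) * M b = c • (M (a * b) : Matrix n n ℂ)
  scalar : ∀ X : Matrix n n ℂ, (∀ a, (M a : Matrix n n ℂ) * X = X * M a) → ∃ c : ℂ, X = c • 1
  nonempty : Nonempty n

/-- The weight space of a character. -/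
def W (M : Q → (Matrix n n ℂ)ˣ) (μ : Q →* ℂˣ) : Submodule ℂ (Matrix n n ℂ) where
  carrier := {Y | ∀ a, (M a : Matrix n n ℂ) * Y = (μ a : ℂ) • (Y * M a)}
  add_mem' := fun {Y Z} hY hZ a => by rw [mul_add, hY a, hZ a, add_mul, smul_add]
  zero_mem' := fun a => by rw [mul_zero, zero_mul, smul_zero]
  smul_mem' := fun c Y hY a => by rw [mul_smul_comm, hY a, smul_mul_assoc, smul_comm]

variable {M : Q → (Matrix n n ℂ)ˣ}

theorem mem_W {μ : Q →* ℂˣ} {Y : Matrix n n ℂ} :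
    Y ∈ W M μ ↔ ∀ a, (M a : Matrix n n ℂ) * Y = (μ a : ℂ) • (Y * M a) := Iff.rfl

theorem mem_W_conj {μ : Q →* ℂˣ} {Y : Matrix n n ℂ} :
    Y ∈ W M μ ↔ ∀ a, (M a : Matrix n n ℂ) * Y * ((M a)⁻¹ : (Matrix n n ℂ)ˣ) = (μ a : ℂ) • Y := by
  rw [mem_W]
  refine forall_congr' fun a => ?_
  rw [Units.mul_inv_eq_iff_eq_mul, smul_mul_assoc]

theorem mul_mem_W {μ ν : Q →* ℂˣ} {Y Z : Matrix n n ℂ} (hY : Y ∈ W M μ) (hZ : Z ∈ W M ν) :
    Y * Z ∈ W M (μ * ν) := fun a => by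
  rw [← mul_assoc, hY a, smul_mul_assoc, mul_assoc Y, hZ a, mul_smul_comm, smul_smul,
    MonoidHom.mul_apply, Units.val_mul, mul_assoc Y]

theorem one_mem_W : (1 : Matrix n n ℂ) ∈ W M 1 := fun a => by
  rw [mul_one, one_mul, MonoidHom.one_apply, Units.val_one, one_smul]

theorem pow_mem_W {μ : Q →* ℂˣ} {Y : Matrix n n ℂ} (hY : Y ∈ W M μ) :
    ∀ k : ℕ, Y ^ k ∈ W M (μ ^ k)
  | 0 => by
    rw [show μ ^ 0 = 1 from MonoidHom.ext fun a => by simp, pow_zero]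
    exact one_mem_W
  | k + 1 => by
    rw [show μ ^ (k + 1) = μ ^ k * μ from MonoidHom.ext fun a => by simp [pow_succ], pow_succ]
    exact mul_mem_W (pow_mem_W hY k) hY

variable (hM : ProjIrr M)

include hM

theorem eq_smul_one {Y : Matrix n n ℂ} (hY : Y ∈ W M 1) : ∃ c : ℂ, Y = c • 1 :=
  hM.scalar Y fun a => by rw [hY a, MonoidHom.one_apply, Units.val_one, one_smul]

theorem matrix_one_ne_zero : (1 : Matrix n n ℂ) ≠ 0 := by
  haveI := hM.nonempty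
  exact one_ne_zero

theorem weight_eq {μ ν : Q →* ℂˣ} {Y : Matrix n n ℂ} (hY : Y ∈ W M μ) (hY' : Y ∈ W M ν)
    (h0 : Y ≠ 0) : μ = ν := by
  refine MonoidHom.ext fun a => Units.ext ?_
  have h1 : (μ a : ℂ) • (Y * M a) = (ν a : ℂ) • (Y * M a) := (hY a).symm.trans (hY' a)
  refine smul_left_injective ℂ ?_ h1
  intro h
  exact h0 ((Units.mul_left_eq_zero (M a)).mp h)

theorem mul_scalar_ne {a b : Q} {c : ℂ}
    (h : (M a : Matrix n n ℂ) * M b = c • (M (a * b) : Matrix n n ℂ)) : c ≠ 0 := by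
  rintro rfl
  rw [zero_smul, ← Units.val_mul] at h
  haveI := hM.nonempty
  exact (M a * M b).ne_zero h

theorem conj_conj (a b : Q) (Y : Matrix n n ℂ) :
    (M a : Matrix n n ℂ) * ((M b : Matrix n n ℂ) * Y * ((M b)⁻¹ : (Matrix n n ℂ)ˣ)) *
        ((M a)⁻¹ : (Matrix n n ℂ)ˣ) =
      (M (a * b) : Matrix n n ℂ) * Y * ((M (a * b))⁻¹ : (Matrix n n ℂ)ˣ) := by
  obtain ⟨c, hc⟩ := hM.mul a b
  have hc0 := mul_scalar_ne hM hc
  have h2 : (((M b)⁻¹ : (Matrix n n ℂ)ˣ) : Matrix n n ℂ) * ((M a)⁻¹ : (Matrix n n ℂ)ˣ) =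
      c⁻¹ • (((M (a * b))⁻¹ : (Matrix n n ℂ)ˣ) : Matrix n n ℂ) := by
    rw [← Units.val_mul, ← _root_.mul_inv_rev]
    refine Units.inv_eq_of_mul_eq_one_right ?_
    rw [Units.val_mul, hc, smul_mul_assoc, mul_smul_comm, smul_smul, mul_inv_cancel₀ hc0, one_smul,
      Units.mul_inv]
  simp only [mul_assoc]
  rw [h2, ← mul_assoc (M a : Matrix n n ℂ), hc]
  simp only [smul_mul_assoc, mul_smul_comm, smul_smul, inv_mul_cancel₀ hc0, mul_inv_cancel₀ hc0,
    one_smul, mul_assoc]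

theorem M_one : ∃ c : ℂ, c ≠ 0 ∧ (M 1 : Matrix n n ℂ) = c • 1 := by
  obtain ⟨c, hc⟩ := hM.mul 1 1
  refine ⟨c, mul_scalar_ne hM hc, ?_⟩
  rw [one_mul] at hc
  have := congrArg (fun X => X * (((M 1)⁻¹ : (Matrix n n ℂ)ˣ) : Matrix n n ℂ)) hc
  simpa only [mul_assoc, Units.mul_inv, mul_one, smul_mul_assoc] using this

theorem conj_one (Y : Matrix n n ℂ) :
    (M 1 : Matrix n n ℂ) * Y * ((M 1)⁻¹ : (Matrix n n ℂ)ˣ) = Y := by
  obtain ⟨c, -, hc⟩ := M_one hM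
  rw [hc, smul_mul_assoc, one_mul, smul_mul_assoc, ← mul_smul_comm,
    show c • (((M 1)⁻¹ : (Matrix n n ℂ)ˣ) : Matrix n n ℂ) = 1 by
      rw [← Units.mul_inv (M 1)]; conv_rhs => rw [hc, smul_mul_assoc, one_mul],
    mul_one]

omit hM

instance : Finite (Q →* ℂˣ) :=
  Nat.finite_of_card_ne_zero (by
    rw [CommGroup.card_monoidHom_of_hasEnoughRootsOfUnity]; exact Nat.card_pos.ne')

theorem card_dual : Nat.card (Q →* ℂˣ) = Nat.card Q :=
  CommGroup.card_monoidHom_of_hasEnoughRootsOfUnity Q ℂ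

theorem sum_dual_apply [Fintype (Q →* ℂˣ)] [DecidableEq Q] (a : Q) :
    ∑ μ : Q →* ℂˣ, (μ a : ℂ) = if a = 1 then (Nat.card Q : ℂ) else 0 := by
  split_ifs with h
  · subst h
    simp only [map_one, Units.val_one, Finset.sum_const, Finset.card_univ, nsmul_eq_mul, mul_one]
    rw [← Nat.card_eq_fintype_card, card_dual]
  · obtain ⟨μ₀, hμ₀⟩ := CommGroup.exists_apply_ne_one_of_hasEnoughRootsOfUnity Q ℂ h
    have h1 : (μ₀ a : ℂ) * ∑ μ : Q →* ℂˣ, (μ a : ℂ) = ∑ μ : Q →* ℂˣ, (μ a : ℂ) := by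
      rw [Finset.mul_sum]
      exact Fintype.sum_equiv (Equiv.mulLeft μ₀) _ _ fun μ => by
        rw [Equiv.coe_mulLeft, MonoidHom.mul_apply, Units.val_mul]
    by_contra hs
    exact hμ₀ (Units.ext (by rw [Units.val_one]; exact (mul_eq_right₀ hs).mp h1))

variable [Fintype Q]

/-- The projection to a weight space. -/
noncomputable def P (M : Q → (Matrix n n ℂ)ˣ) (μ : Q →* ℂˣ) :
    Matrix n n ℂ →ₗ[ℂ] Matrix n n ℂ where
  toFun Y := (Nat.card Q : ℂ)⁻¹ •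
    ∑ a, ((μ a⁻¹ : ℂˣ) : ℂ) • ((M a : Matrix n n ℂ) * Y * ((M a)⁻¹ : (Matrix n n ℂ)ˣ))
  map_add' Y Z := by
    simp only [mul_add, add_mul, smul_add, Finset.sum_add_distrib]
  map_smul' c Y := by
    simp only [RingHom.id_apply, mul_smul_comm, smul_mul_assoc, Finset.smul_sum, smul_smul]
    refine Finset.sum_congr rfl fun a _ => ?_
    ring_nf

theorem P_apply (μ : Q →* ℂˣ) (Y : Matrix n n ℂ) : P M μ Y = (Nat.card Q : ℂ)⁻¹ •
    ∑ a, ((μ a⁻¹ : ℂˣ) : ℂ) • ((M a : Matrix n n ℂ) * Y * ((M a)⁻¹ : (Matrix n n ℂ)ˣ)) := rfl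

include hM

theorem P_mem (μ : Q →* ℂˣ) (Y : Matrix n n ℂ) : P M μ Y ∈ W M μ := by
  rw [mem_W_conj]
  intro b
  rw [P_apply]
  rw [mul_smul_comm, smul_mul_assoc, smul_comm (μ b : ℂ), Finset.mul_sum, Finset.sum_mul,
    Finset.smul_sum (r := (μ b : ℂ))]
  congr 1
  apply Fintype.sum_equiv (Equiv.mulLeft b)
  intro a
  rw [mul_smul_comm, smul_mul_assoc, conj_conj hM, Equiv.coe_mulLeft, smul_smul]
  congr 1
  rw [← Units.val_mul, ← map_mul, _root_.mul_inv_rev, mul_comm a⁻¹, mul_inv_cancel_left]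

theorem sum_P [Fintype (Q →* ℂˣ)] (Y : Matrix n n ℂ) : ∑ μ : Q →* ℂˣ, P M μ Y = Y := by
  classical
  simp only [P_apply]
  rw [← Finset.smul_sum, Finset.sum_comm]
  simp only [← Finset.sum_smul, sum_dual_apply, inv_eq_one]
  rw [Finset.sum_eq_single (1 : Q) (fun b _ hb => by rw [if_neg hb, zero_smul])
    (fun h => absurd (Finset.mem_univ _) h), if_pos rfl, conj_one hM, smul_smul,
    inv_mul_cancel₀ (Nat.cast_ne_zero.mpr Nat.card_pos.ne'), one_smul]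

omit hM

theorem P_mul_right {μ ν : Q →* ℂˣ} {Y Z : Matrix n n ℂ} (hZ : Z ∈ W M μ) :
    P M (ν * μ) (Y * Z) = P M ν Y * Z := by
  rw [P_apply, P_apply]
  rw [smul_mul_assoc, Finset.sum_mul]
  congr 1
  refine Finset.sum_congr rfl fun a _ => ?_
  have h1 : (M a : Matrix n n ℂ) * (Y * Z) * ((M a)⁻¹ : (Matrix n n ℂ)ˣ) =
      ((M a : Matrix n n ℂ) * Y * ((M a)⁻¹ : (Matrix n n ℂ)ˣ)) *
        ((M a : Matrix n n ℂ) * Z * ((M a)⁻¹ : (Matrix n n ℂ)ˣ)) := by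
    simp only [mul_assoc, Units.inv_mul_cancel_left]
  rw [h1, mem_W_conj.mp hZ a, mul_smul_comm, smul_smul, smul_mul_assoc]
  congr 1
  rw [← Units.val_mul, MonoidHom.mul_apply, map_inv, map_inv, inv_mul_cancel_right]

theorem P_mul_left {μ ν : Q →* ℂˣ} {Y Z : Matrix n n ℂ} (hZ : Z ∈ W M μ) :
    P M (ν * μ) (Z * Y) = Z * P M ν Y := by
  rw [P_apply, P_apply]
  rw [mul_smul_comm, Finset.mul_sum]
  congr 1
  refine Finset.sum_congr rfl fun a _ => ?_
  have h1 : (M a : Matrix n n ℂ) * (Z * Y) * ((M a)⁻¹ : (Matrix n n ℂ)ˣ) =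
      ((M a : Matrix n n ℂ) * Z * ((M a)⁻¹ : (Matrix n n ℂ)ˣ)) *
        ((M a : Matrix n n ℂ) * Y * ((M a)⁻¹ : (Matrix n n ℂ)ˣ)) := by
    simp only [mul_assoc, Units.inv_mul_cancel_left]
  rw [h1, mem_W_conj.mp hZ a, smul_mul_assoc, smul_smul, mul_smul_comm]
  congr 1
  rw [← Units.val_mul, MonoidHom.mul_apply, map_inv, map_inv, inv_mul_cancel_right]

theorem P_eq_zero {μ ν : Q →* ℂˣ} (hne : μ ≠ ν) {Y : Matrix n n ℂ} (hY : Y ∈ W M μ) :
    P M ν Y = 0 := by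
  classical
  rw [P_apply]
  have h1 : ∀ a, ((ν a⁻¹ : ℂˣ) : ℂ) • ((M a : Matrix n n ℂ) * Y * ((M a)⁻¹ : (Matrix n n ℂ)ˣ)) =
      (((μ / ν) a : ℂˣ) : ℂ) • Y := fun a => by
    rw [mem_W_conj.mp hY a, smul_smul, MonoidHom.div_apply, div_eq_mul_inv, Units.val_mul, map_inv,
      mul_comm]
  rw [Finset.sum_congr rfl fun a _ => h1 a, ← Finset.sum_smul]
  obtain ⟨b, hb⟩ : ∃ b, (μ / ν) b ≠ 1 := by
    by_contra hh
    push Not at hh
    exact hne (div_eq_one.mp (MonoidHom.ext hh))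
  have h2 : (((μ / ν) b : ℂˣ) : ℂ) * ∑ a, (((μ / ν) a : ℂˣ) : ℂ) = ∑ a, (((μ / ν) a : ℂˣ) : ℂ) := by
    rw [Finset.mul_sum]
    exact Fintype.sum_equiv (Equiv.mulLeft b) _ _ fun a => by
      rw [Equiv.coe_mulLeft, map_mul, Units.val_mul]
  have h3 : ∑ a, (((μ / ν) a : ℂˣ) : ℂ) = 0 := by
    by_contra hs
    exact hb (Units.ext (by rw [Units.val_one]; exact (mul_eq_right₀ hs).mp h2))
  rw [h3, zero_smul, smul_zero]

include hM

theorem exists_inv {μ : Q →* ℂˣ} {Y : Matrix n n ℂ} (hY : Y ∈ W M μ) (h0 : Y ≠ 0) :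
    ∃ Z ∈ W M μ⁻¹, Y * Z = 1 ∧ Z * Y = 1 := by
  classical
  have := Fintype.ofFinite (Q →* ℂˣ)
  obtain ⟨i, j, hij⟩ : ∃ i j, Y i j ≠ 0 := by
    by_contra hc
    push Not at hc
    exact h0 (Matrix.ext hc)
  set X : Matrix n n ℂ := P M μ⁻¹ (Matrix.single j i 1) with hX
  have htr : (Y * X).trace = Y i j := by
    have h1 : (Y * Matrix.single j i (1 : ℂ)).trace = Y i j := by
      rw [Matrix.trace_mul_comm, Matrix.trace, Finset.sum_eq_single j]
      · rw [Matrix.diag_apply, Matrix.single_mul_apply_same, one_mul]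
      · intro b _ hb
        rw [Matrix.diag_apply, Matrix.single_mul_apply_of_ne _ _ _ _ _ hb]
      · exact fun h => absurd (Finset.mem_univ _) h
    rw [← h1]
    conv_rhs => rw [← sum_P hM (Matrix.single j i (1 : ℂ))]
    rw [Finset.mul_sum, Matrix.trace_sum, Finset.sum_eq_single μ⁻¹]
    · intro ν _ hν
      by_contra hne
      have h2 := mul_mem_W hY (P_mem hM ν (Matrix.single j i (1 : ℂ)))
      suffices h4 : μ * ν = 1 from
        hν (MonoidHom.ext fun a => eq_inv_of_mul_eq_one_right (DFunLike.congr_fun h4 a))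
      refine MonoidHom.ext fun a => Units.ext ?_
      have h3 := congrArg Matrix.trace (mem_W_conj.mp h2 a)
      rw [Matrix.trace_smul, smul_eq_mul, Matrix.trace_units_conj] at h3
      rw [MonoidHom.one_apply, Units.val_one]
      exact (mul_eq_right₀ hne).mp h3.symm
    · exact fun h => absurd (Finset.mem_univ _) h
  obtain ⟨c, hc⟩ := eq_smul_one hM (Y := Y * X) (by
    have := mul_mem_W hY (P_mem hM μ⁻¹ (Matrix.single j i (1 : ℂ)))
    rwa [show μ * μ⁻¹ = 1 from MonoidHom.ext fun a => mul_inv_cancel (μ a)] at this)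
  have hc0 : c ≠ 0 := by
    rintro rfl
    rw [hc, zero_smul, Matrix.trace_zero] at htr
    exact hij htr.symm
  have h1 : Y * (c⁻¹ • X) = 1 := by
    rw [mul_smul_comm, hc, smul_smul, inv_mul_cancel₀ hc0, one_smul]
  exact ⟨c⁻¹ • X, Submodule.smul_mem _ _ (P_mem hM _ _), h1, mul_eq_one_comm.mp h1⟩

theorem eq_smul_of_mem {μ : Q →* ℂˣ} {Y Y' : Matrix n n ℂ} (hY : Y ∈ W M μ) (h0 : Y ≠ 0)
    (hY' : Y' ∈ W M μ) : ∃ c : ℂ, Y' = c • Y := by
  obtain ⟨Z, hZ, hYZ, hZY⟩ := exists_inv hM hY h0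
  obtain ⟨c, hc⟩ := eq_smul_one hM (Y := Y' * Z) (by
    have := mul_mem_W hY' hZ; rwa [show μ * μ⁻¹ = 1 from MonoidHom.ext fun a => mul_inv_cancel (μ a)] at this)
  refine ⟨c, ?_⟩
  have := congrArg (· * Y) hc
  simpa only [mul_assoc, hZY, mul_one, smul_mul_assoc, one_mul] using this

theorem mul_ne_zero_of_weight {μ ν : Q →* ℂˣ} {Y Z : Matrix n n ℂ} (hY : Y ∈ W M μ) (hY0 : Y ≠ 0)
    (hZ : Z ∈ W M ν) (hZ0 : Z ≠ 0) : Y * Z ≠ 0 := by
  obtain ⟨Y', -, -, hY'⟩ := exists_inv hM hY hY0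
  intro h
  exact hZ0 (by rw [← one_mul Z, ← hY', mul_assoc, h, mul_zero])

theorem comm_scalar {μ ν : Q →* ℂˣ} {Y Z : Matrix n n ℂ} (hY : Y ∈ W M μ) (hY0 : Y ≠ 0)
    (hZ : Z ∈ W M ν) (hZ0 : Z ≠ 0) : ∃ c : ℂ, c ≠ 0 ∧ Y * Z = c • (Z * Y) := by
  have h1 := mul_mem_W hY hZ
  have h2 := mul_mem_W hZ hY
  rw [mul_comm ν] at h2
  obtain ⟨c, hc⟩ := eq_smul_of_mem hM h2 (mul_ne_zero_of_weight hM hZ hZ0 hY hY0) h1
  exact ⟨c, fun h => mul_ne_zero_of_weight hM hY hY0 hZ hZ0 (by rw [hc, h, zero_smul]), hc⟩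

/-- A weight vector commuting with all weight vectors has trivial weight. -/
theorem weight_one_of_central {μ : Q →* ℂˣ} {Y : Matrix n n ℂ} (hY : Y ∈ W M μ) (h0 : Y ≠ 0)
    (hc : ∀ ν, ∀ Z ∈ W M ν, Y * Z = Z * Y) : μ = 1 := by
  classical
  have := Fintype.ofFinite (Q →* ℂˣ)
  have hall : ∀ X : Matrix n n ℂ, Y * X = X * Y := fun X => by
    rw [← sum_P hM X, Finset.mul_sum, Finset.sum_mul]
    exact Finset.sum_congr rfl fun ν _ => hc ν _ (P_mem hM ν X)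
  exact weight_eq hM hY (fun a => by
    rw [hall, MonoidHom.one_apply, Units.val_one, one_smul]) h0

/-- A unit stabilising every weight line is itself a weight vector. -/
theorem mem_W_of_stabilizes (X : (Matrix n n ℂ)ˣ)
    (hX : ∀ μ, ∀ Y ∈ W M μ, (X : Matrix n n ℂ) * Y * ((X⁻¹ : (Matrix n n ℂ)ˣ) : Matrix n n ℂ) ∈ W M μ) :
    ∃ ν, (X : Matrix n n ℂ) ∈ W M ν := by
  classical
  have := Fintype.ofFinite (Q →* ℂˣ)
  have h1 : ∀ μ, ∀ E ∈ W M μ, E ≠ 0 → ∃ s : ℂ, ∀ ν,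
      P M ν (X : Matrix n n ℂ) * E = s • (E * P M ν (X : Matrix n n ℂ)) := by
    intro μ E hE hE0
    obtain ⟨s, hs⟩ := eq_smul_of_mem hM hE hE0 (hX μ E hE)
    refine ⟨s, fun ν => ?_⟩
    have h2 : (X : Matrix n n ℂ) * E = s • (E * X) := by
      rw [← smul_mul_assoc, ← hs]
      simp only [mul_assoc, Units.inv_mul, mul_one]
    rw [← P_mul_right hE, ← P_mul_left hE, h2, map_smul]
  obtain ⟨ν, hν⟩ : ∃ ν, P M ν (X : Matrix n n ℂ) ≠ 0 := by
    by_contra hc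
    push Not at hc
    haveI := hM.nonempty
    refine X.ne_zero ?_
    rw [← sum_P hM (X : Matrix n n ℂ)]
    exact Finset.sum_eq_zero fun ν _ => hc ν
  refine ⟨ν, ?_⟩
  rw [← sum_P hM (X : Matrix n n ℂ), Finset.sum_eq_single ν]
  · exact P_mem hM ν _
  · intro ν' _ hne
    by_contra hν'
    obtain ⟨Z, hZ, hXZ, hZX⟩ := exists_inv hM (P_mem hM ν (X : Matrix n n ℂ)) hν
    refine hne ?_
    have hw : ν' * ν⁻¹ = 1 := by
      refine weight_one_of_central hM (mul_mem_W (P_mem hM ν' (X : Matrix n n ℂ)) hZ)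
        (mul_ne_zero_of_weight hM (P_mem hM ν' _) hν' hZ (fun h => by
          rw [h, mul_zero] at hXZ; exact matrix_one_ne_zero hM hXZ.symm)) fun μ E hE => ?_
      rcases eq_or_ne E 0 with rfl | hE0
      · rw [mul_zero, zero_mul]
      obtain ⟨s, hs⟩ := h1 μ E hE hE0
      have hZE : E * Z = s • (Z * E) := by
        calc E * Z = Z * (P M ν (X : Matrix n n ℂ) * E) * Z := by
              rw [← mul_assoc Z, hZX, one_mul]
          _ = s • (Z * E) := by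
              rw [hs ν, mul_smul_comm, smul_mul_assoc, mul_assoc, mul_assoc, hXZ, mul_one]
      have hs0 : s ≠ 0 := by
        rintro rfl
        have := hs ν
        rw [zero_smul] at this
        exact mul_ne_zero_of_weight hM (P_mem hM ν _) hν hE hE0 this
      have hZE' : Z * E = s⁻¹ • (E * Z) := by
        rw [hZE, smul_smul, inv_mul_cancel₀ hs0, one_smul]
      rw [mul_assoc, hZE', mul_smul_comm, ← mul_assoc, hs ν', smul_mul_assoc, smul_smul,
        inv_mul_cancel₀ hs0, one_smul, mul_assoc]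
    exact MonoidHom.ext fun a => mul_inv_eq_one.mp (DFunLike.congr_fun hw a)
  · exact fun h => absurd (Finset.mem_univ _) h

end Cfsg.Agent.Lib.OddCorr
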